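import Mathlib.Analysis.Complex.Basic
import Mathlib.Algebra.BigOperators.Fin
import Mathlib.Tactic

/-!
# Gram matrices of integral coordinates with respect to four functions with one relation
-/

set_option autoImplicit false

open Finset
open scoped ComplexConjugate

namespace CfsgLib.SixteenNine

/-- Four functions whose only relations are multiples of their sum. -/
def OneRelation {S : Type*} (φ : Fin 4 → S → ℂ) : Prop :=
  ∀ c : Fin 4 → ℂ, (∀ s, ∑ a, c a * φ a s = 0) → ∀ a a', c a = c a'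

variable {ι : Type*} [Fintype ι] {S S' : Type*} {φ : Fin 4 → S → ℂ} {φ' : Fin 4 → S' → ℂ}
  {y y' : ι → Fin 4 → ℤ} {b : ι → ℤ}

/-- A vector orthogonal on the functions and of total zero vanishes. -/
theorem eq_zero_of_oneRelation (hφ : OneRelation φ) {c : Fin 4 → ℂ}
    (h : ∀ s, ∑ a, c a * φ a s = 0) (hsum : ∑ a, c a = 0) (a : Fin 4) : c a = 0 := by
  have h1 : ∀ a', c a' = c a := fun a' => hφ c h a' a
  rw [sum_congr rfl fun a' _ => h1 a', sum_const, card_univ, Fintype.card_fin, nsmul_eq_mul] at hsum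
  simpa using hsum

/-- A weighted sum of the coordinates. -/
theorem weight_eq (hφ : OneRelation φ) (hy : ∀ i, ∑ a, y i a = b i) (w : ι → ℤ)
    (hw : ∀ s, ∑ i, (w i : ℂ) * ∑ a, (y i a : ℂ) * φ a s = 0) (a : Fin 4) :
    4 * ∑ i, w i * y i a = ∑ i, w i * b i := by
  have h1 : ∀ a a', ((∑ i, w i * y i a : ℤ) : ℂ) = ((∑ i, w i * y i a' : ℤ) : ℂ) := by
    refine hφ _ fun s => ?_
    rw [← hw s]
    simp only [Int.cast_sum, Int.cast_mul, sum_mul, mul_sum, mul_assoc]
    exact sum_comm
  have h2 : ∀ a', ∑ i, w i * y i a' = ∑ i, w i * y i a := fun a' => by exact_mod_cast h1 a' a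
  rw [show ∑ i, w i * b i = ∑ a', ∑ i, w i * y i a' by
    rw [sum_comm]; exact sum_congr rfl fun i _ => by rw [← hy i, mul_sum],
    sum_congr rfl fun a' _ => h2 a', sum_const, card_univ, Fintype.card_fin, nsmul_eq_mul]
  rfl

/-- The coordinates are orthogonal to the degrees. -/
theorem degree_orth (hφ : OneRelation φ) (hy : ∀ i, ∑ a, y i a = b i) (d : ι → ℤ)
    (hd : ∀ s, ∑ i, (d i : ℂ) * ∑ a, (y i a : ℂ) * φ a s = 0) (hdb : ∑ i, d i * b i = 0)
    (a : Fin 4) : ∑ i, d i * y i a = 0 := by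
  have h := weight_eq hφ hy d hd a
  omega

variable (hφ : OneRelation φ) (hy : ∀ i, ∑ a, y i a = b i) (hb2 : ∑ i, b i ^ 2 = 16)
  (hb : ∀ s, ∑ i, (b i : ℂ) * ∑ a, (y i a : ℂ) * φ a s = 0)
include hφ hy hb2 hb

theorem sum_mul_row (a : Fin 4) : ∑ i, b i * y i a = 4 := by
  have h := weight_eq hφ hy b hb a
  rw [show ∑ i, b i * b i = 16 by rw [← hb2]; exact sum_congr rfl fun i _ => (sq (b i)).symm] at h
  omega

/-- The two sets of coordinates meet in the all-one matrix. -/
theorem cross_eq_one (hφ' : OneRelation φ') (hy' : ∀ i, ∑ a, y' i a = b i)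
    (hb' : ∀ s, ∑ i, (b i : ℂ) * ∑ a, (y' i a : ℂ) * φ' a s = 0)
    (horth : ∀ s s', ∑ i, (∑ a, (y i a : ℂ) * φ a s) * conj (∑ a, (y' i a : ℂ) * φ' a s') = 0)
    (a c : Fin 4) : ∑ i, y i a * y' i c = 1 := by
  set X : Fin 4 → Fin 4 → ℂ := fun a c => ∑ i, (y i a : ℂ) * (y' i c : ℂ) with hX
  have hrow : ∀ a, ∑ c, X a c = 4 := fun a => by
    have h : ∑ c, X a c = ((∑ i, b i * y i a : ℤ) : ℂ) := by
      simp only [hX]
      rw [sum_comm, Int.cast_sum]
      refine sum_congr rfl fun i _ => ?_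
      rw [← mul_sum, ← Int.cast_sum, hy' i, Int.cast_mul, mul_comm]
    rw [h, sum_mul_row hφ hy hb2 hb a]
    norm_num
  have hcol : ∀ c, ∑ a, X a c = 4 := fun c => by
    have h : ∑ a, X a c = ((∑ i, b i * y' i c : ℤ) : ℂ) := by
      simp only [hX]
      rw [sum_comm, Int.cast_sum]
      refine sum_congr rfl fun i _ => ?_
      rw [← sum_mul, ← Int.cast_sum, hy i, Int.cast_mul]
    rw [h, sum_mul_row hφ' hy' hb2 hb' c]
    norm_num
  -- first the rows are equal
  have hA : ∀ s', ∀ a a', ∑ c, X a c * conj (φ' c s') = ∑ c, X a' c * conj (φ' c s') := by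
    intro s'
    refine hφ _ fun s => ?_
    rw [← horth s s']
    simp only [hX, map_sum, map_mul, map_intCast, mul_sum, sum_mul]
    rw [sum_congr rfl fun a _ => sum_comm, sum_comm]
    refine sum_congr rfl fun i _ => ?_
    rw [sum_comm]
    exact sum_congr rfl fun c _ => sum_congr rfl fun a _ => by ring
  have hB : ∀ a a' c, X a c = X a' c := by
    intro a a' c
    have h := eq_zero_of_oneRelation hφ' (c := fun c => conj (X a c - X a' c)) (fun s' => ?_) ?_ c
    · exact sub_eq_zero.1 ((map_eq_zero (starRingEnd ℂ)).1 h)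
    · have h2 := congrArg conj (sub_eq_zero.2 (hA s' a a'))
      rw [map_zero, ← sum_sub_distrib, map_sum] at h2
      rw [← h2]
      exact sum_congr rfl fun c _ => by simp [sub_mul]
    · rw [← map_sum, sum_sub_distrib, hrow, hrow, sub_self, map_zero]
  have hC : X a c = 1 := by
    have h := hcol c
    rw [sum_congr rfl fun a' _ => hB a' a c, sum_const, card_univ, Fintype.card_fin,
      nsmul_eq_mul] at h
    push_cast at h
    linear_combination h / 4
  have h1 : ((∑ i, y i a * y' i c : ℤ) : ℂ) = ((1 : ℤ) : ℂ) := by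
    rw [Int.cast_one, ← hC, hX]
    push_cast
    rfl
  exact_mod_cast h1

/-- The coordinates are orthogonal of norm four. -/
theorem gram_eq (hgram : ∀ s s', ∑ i, (∑ a, (y i a : ℂ) * φ a s) * conj (∑ a, (y i a : ℂ) * φ a s') =
      4 * ∑ a, φ a s * conj (φ a s')) (a c : Fin 4) :
    ∑ i, y i a * y i c = if a = c then 4 else 0 := by
  set X : Fin 4 → Fin 4 → ℂ := fun a c =>
    (∑ i, (y i a : ℂ) * (y i c : ℂ)) - if a = c then 4 else 0 with hX
  have hrow : ∀ a, ∑ c, X a c = 0 := fun a => by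
    have h : ∑ c, ∑ i, (y i a : ℂ) * (y i c : ℂ) = ((∑ i, b i * y i a : ℤ) : ℂ) := by
      rw [sum_comm, Int.cast_sum]
      refine sum_congr rfl fun i _ => ?_
      rw [← mul_sum, ← Int.cast_sum, hy i, Int.cast_mul, mul_comm]
    simp only [hX, sum_sub_distrib, h, sum_mul_row hφ hy hb2 hb a]
    simp
  have hsymm : ∀ a c, X a c = X c a := fun a c => by
    simp only [hX, eq_comm (a := a) (b := c)]
    congr 1
    exact sum_congr rfl fun i _ => mul_comm _ _
  have hA : ∀ s', ∀ a a', ∑ c, X a c * conj (φ c s') = ∑ c, X a' c * conj (φ c s') := by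
    intro s'
    refine hφ _ fun s => ?_
    have e : ∑ a, (∑ c, X a c * conj (φ c s')) * φ a s =
        ∑ i, (∑ a, (y i a : ℂ) * φ a s) * conj (∑ a, (y i a : ℂ) * φ a s') -
          4 * ∑ a, φ a s * conj (φ a s') := by
      simp only [hX, sub_mul, sum_sub_distrib, ite_mul, zero_mul, sum_ite_eq, mem_univ, if_true]
      congr 1
      · simp only [map_sum, map_mul, map_intCast, mul_sum, sum_mul]
        rw [sum_congr rfl fun a _ => sum_comm, sum_comm]
        refine sum_congr rfl fun i _ => ?_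
        rw [sum_comm]
        exact sum_congr rfl fun c _ => sum_congr rfl fun a _ => by ring
      · rw [mul_sum]
        exact sum_congr rfl fun a _ => by ring
    rw [e, hgram, sub_self]
  have hB : ∀ a a' c, X a c = X a' c := by
    intro a a' c
    have h := eq_zero_of_oneRelation hφ (c := fun c => conj (X a c - X a' c)) (fun s' => ?_) ?_ c
    · exact sub_eq_zero.1 ((map_eq_zero (starRingEnd ℂ)).1 h)
    · have h2 := congrArg conj (sub_eq_zero.2 (hA s' a a'))
      rw [map_zero, ← sum_sub_distrib, map_sum] at h2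
      rw [← h2]
      exact sum_congr rfl fun c _ => by simp [sub_mul]
    · rw [← map_sum, sum_sub_distrib, hrow, hrow, sub_self, map_zero]
  have hC : X a c = 0 := by
    have h := hrow a
    rw [sum_congr rfl fun c' _ => show X a c' = X a c by
      rw [hsymm a c', hB c' c a, hsymm c a], sum_const, card_univ, Fintype.card_fin,
      nsmul_eq_mul] at h
    simpa using h
  have h1 : ((∑ i, y i a * y i c : ℤ) : ℂ) = ((if a = c then 4 else 0 : ℤ) : ℂ) := by
    rw [hX] at hC
    push_cast
    exact sub_eq_zero.1 hC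
  exact_mod_cast h1

end CfsgLib.SixteenNine
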