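import Cfsg.Agent.S4640
import Cfsg.Agent.S0948
import Cfsg.Agent.S0942
import Cfsg.Agent.Lib.BlockLocal.DefectCount
import Cfsg.Agent.Lib.BlockLocal.BlockCover
import Cfsg.Agent.Lib.SmallBlocks.RegMatrix
import Cfsg.Agent.Lib.SixteenNine.Columns

/-!
# A normal subgroup of index four with Klein four Sylow group and one class of involutions

The principal block of the whole group is four copies of the four characters of the principal
block of the subgroup.
-/

set_option autoImplicit false
set_option linter.style.haveILetI false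
set_option linter.unusedSectionVars false

open Finset Cfsg CfsgLib.CharTheory CfsgLib.BlockLocal
open scoped ComplexConjugate

namespace CfsgLib.SixteenNine

universe u

/-- The signed restrictions to the regular elements. -/
noncomputable def signedReg {K : Type u} [Group K] (θ : Fin 4 → IrrCharacter K) (δ : Fin 4 → ℤ) :
    Fin 4 → {k : K // ¬ 2 ∣ orderOf k} → ℂ := fun a k => (δ a : ℂ) * (θ a : K → ℂ) k

/-- The four characters of the principal 2-block with Klein four Sylow group and one class of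
involutions. -/
theorem klein_data {K : Type u} [Group K] [Fintype K] (M : Ideal AlgInt) (hM : IsPModular 2 M)
    (Q : Sylow 2 K) (hQ : IsKleinFour (Q : Subgroup K))
    (hone : ∀ s t : K, orderOf s = 2 → orderOf t = 2 → IsConj s t) :
    ∃ θ : Fin 4 → IrrCharacter K, ∃ δ : Fin 4 → ℤ, Function.Injective θ ∧
      (∀ χ : IrrCharacter K, χ ∈ principalBlock M K ↔ ∃ a, θ a = χ) ∧
      (∀ a, δ a = 1 ∨ δ a = -1) ∧
      (∀ a k, 2 ∣ orderOf k → (θ a : K → ℂ) k = (δ a : ℂ)) ∧
      OneRelation (signedReg θ δ) ∧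
      blockRank 2 (principalBlock M K) = 3 := by
  classical
  haveI := CfsgLib.Blocks.isPrime_of_isPModular hM
  obtain ⟨ζ₂, ζ₃, ζ₄, ε, hε, n2, n3, h23, h24, h34, hB, hinv, -, -, d4, hrel⟩ :=
    Cfsg.Agent.S0948.result M hM Q hQ hone
  have ht4 : (ζ₄ : K → ℂ) ≠ fun _ => 1 := fun h => by
    rw [h] at d4
    simp [charDegree] at d4
  set θ : Fin 4 → IrrCharacter K := ![trivIrr K, ζ₂, ζ₃, ζ₄] with hθ
  set δ : Fin 4 → ℤ := ![1, 1, ε, -1] with hδ
  have hne : ∀ ζ : IrrCharacter K, (ζ : K → ℂ) ≠ (fun _ => 1) → trivIrr K ≠ ζ :=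
    fun ζ h e => h (e ▸ rfl)
  have hinj : Function.Injective θ := by
    intro i j h
    fin_cases i <;> fin_cases j <;> simp [θ] at h ⊢ <;>
      first
      | exact hne _ n2 h | exact hne _ n3 h | exact hne _ ht4 h
      | exact hne _ n2 h.symm | exact hne _ n3 h.symm | exact hne _ ht4 h.symm
      | exact h23 h | exact h24 h | exact h34 h
      | exact h23 h.symm | exact h24 h.symm | exact h34 h.symm
  have hmem : ∀ χ : IrrCharacter K, χ ∈ principalBlock M K ↔ ∃ a, θ a = χ := by
    intro χ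
    rw [hB]
    constructor
    · rintro (h | rfl | rfl | rfl)
      · exact ⟨0, Subtype.ext h.symm⟩
      · exact ⟨1, rfl⟩
      · exact ⟨2, rfl⟩
      · exact ⟨3, rfl⟩
    · rintro ⟨a, rfl⟩
      fin_cases a
      · exact Or.inl rfl
      · exact Or.inr (Or.inl rfl)
      · exact Or.inr (Or.inr (Or.inl rfl))
      · exact Or.inr (Or.inr (Or.inr rfl))
  have hδ2 : ∀ a, δ a = 1 ∨ δ a = -1 := by
    intro a
    fin_cases a <;> simp [δ, hε]
  -- values on the singular elements
  obtain ⟨z, hzQ, hz2⟩ := exists_involution_mem Q hQ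
  obtain ⟨hnc, -⟩ := centralizer_complement Q hQ z hz2 hzQ
  have hsing : ∀ a k, 2 ∣ orderOf k → (θ a : K → ℂ) k = (δ a : ℂ) := by
    intro a k hk
    obtain ⟨c, y, hy, hyc⟩ := exists_conj_section Q hQ z hz2 hone hk
    rw [← IsIrrCharacter.isClassFunction (θ a).2 k c, hyc,
      Cfsg.Agent.S0942.result 2 M hM z ⟨1, by rw [hz2, pow_one]⟩ (y : K)
        (Subgroup.mem_map.2 ⟨y, mem_of_p_regular hnc hy, rfl⟩) (θ a) ((hmem _).2 ⟨a, rfl⟩)]
    obtain ⟨e2, e3, e4⟩ := hinv z hz2
    fin_cases a <;> simp [θ, δ, e2, e3, e4, trivIrr]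
  have hsum : ∀ k : K, ¬ 2 ∣ orderOf k → ∑ a, (δ a : ℂ) * (θ a : K → ℂ) k = 0 := by
    intro k hk
    have h := hrel k (by rwa [← Nat.not_even_iff_odd, even_iff_two_dvd])
    simp [Fin.sum_univ_four, θ, δ, trivIrr]
    linear_combination h
  have hone' : OneRelation (signedReg θ δ) := by
    intro c hc
    have hval : ∀ a, c a * (δ a : ℂ) = (δ a : ℂ) * ((Nat.card K : ℂ)⁻¹ *
        ∑ k : K, if 2 ∣ orderOf k then ∑ a', c a' else 0) := by
      intro a
      have h1 : classInner (fun k => ∑ a', c a' * (δ a' : ℂ) * (θ a' : K → ℂ) k) (θ a : K → ℂ) =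
          c a * (δ a : ℂ) := by
        rw [classInner, sum_congr rfl fun k _ => sum_mul _ _ _, sum_comm, mul_sum]
        rw [sum_eq_single a]
        · rw [sum_congr rfl fun k _ => mul_assoc _ _ _, ← mul_sum, ← mul_left_comm]
          have := classInner_self_of_isIrr (θ a).2
          rw [classInner] at this
          rw [this, mul_one]
        · intro a' _ hne'
          rw [sum_congr rfl fun k _ => mul_assoc _ _ _, ← mul_sum, ← mul_left_comm]
          have := classInner_eq_zero_of_ne (θ a').2 (θ a).2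
            (fun h => hne' (hinj (Subtype.ext h)))
          rw [classInner] at this
          rw [this, mul_zero]
        · exact fun h => absurd (mem_univ a) h
      rw [← h1, classInner, mul_left_comm, mul_sum, mul_sum, mul_sum]
      refine sum_congr rfl fun k _ => ?_
      split_ifs with hk
      · rw [hsing a k hk, map_intCast, sum_congr rfl fun a' _ => show
          c a' * (δ a' : ℂ) * (θ a' : K → ℂ) k = c a' by
            rw [hsing a' k hk, mul_assoc]
            rcases hδ2 a' with e | e <;> simp [e]]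
        ring
      · have h2 := hc ⟨k, hk⟩
        simp only [signedReg, ← mul_assoc] at h2
        rw [h2]
        simp
    intro a a'
    have hcan : ∀ a, c a = (Nat.card K : ℂ)⁻¹ * ∑ k : K, if 2 ∣ orderOf k then ∑ a', c a' else 0 :=
      fun a => by
        have h := hval a
        rw [mul_comm (δ a : ℂ)] at h
        refine mul_right_cancel₀ ?_ h
        rcases hδ2 a with e | e <;> simp [e]
    rw [hcan a, ← hcan a']
  refine ⟨θ, δ, hinj, hmem, hδ2, hsing, hone', ?_⟩
  -- the rank
  let v : Fin 4 → (K → ℂ) := fun a => (δ a : ℂ) • pRegularPart 2 (θ a : K → ℂ)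
  let L : (Fin 4 → ℂ) →ₗ[ℂ] (K → ℂ) := Fintype.linearCombination ℂ v
  have hspan : Submodule.span ℂ ((fun χ : IrrCharacter K => pRegularPart 2 (χ : K → ℂ)) ''
      principalBlock M K) = LinearMap.range L := by
    rw [Fintype.range_linearCombination]
    apply le_antisymm <;> rw [Submodule.span_le]
    · rintro _ ⟨χ, hχ, rfl⟩
      obtain ⟨a, rfl⟩ := (hmem χ).1 hχ
      have e : pRegularPart 2 (θ a : K → ℂ) = (δ a : ℂ) • v a := by
        simp only [v, smul_smul]
        rcases hδ2 a with e | e <;> simp [e]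
      simp only [e]
      exact Submodule.smul_mem _ _ (Submodule.subset_span ⟨a, rfl⟩)
    · rintro _ ⟨a, rfl⟩
      exact Submodule.smul_mem _ _ (Submodule.subset_span ⟨θ a, (hmem _).2 ⟨a, rfl⟩, rfl⟩)
  have hker : LinearMap.ker L = Submodule.span ℂ {fun _ : Fin 4 => (1 : ℂ)} := by
    apply le_antisymm
    · intro c hc
      have h := hone' c fun k => by
        have h2 := congrFun (LinearMap.mem_ker.1 hc) k.1
        rw [Fintype.linearCombination_apply, Finset.sum_apply] at h2
        simpa [v, signedReg, pRegularPart, IsPRegular, k.2] using h2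
      refine Submodule.mem_span_singleton.2 ⟨c 0, funext fun a => ?_⟩
      simp [h 0 a]
    · rw [Submodule.span_le, Set.singleton_subset_iff, SetLike.mem_coe, LinearMap.mem_ker]
      funext k
      rw [Fintype.linearCombination_apply, Finset.sum_apply]
      by_cases hk : 2 ∣ orderOf k
      · simp [v, pRegularPart, IsPRegular, hk]
      · simpa [v, pRegularPart, IsPRegular, hk] using hsum k hk
  have h := LinearMap.finrank_range_add_finrank_ker L
  rw [hker, finrank_span_singleton (fun h => one_ne_zero (congrFun h 0)), ← hspan] at h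
  rw [blockRank]
  simp at h
  omega

/-- Above a normal subgroup of index four with Klein four Sylow group. -/
theorem cover_data {C : Type u} [Group C] [Fintype C] (M : Ideal AlgInt) (hM : IsPModular 2 M)
    (P : Sylow 2 C) (hab : ∀ x ∈ (P : Subgroup C), ∀ y ∈ (P : Subgroup C), x * y = y * x)
    (K : Subgroup C) [K.Normal] [Fintype K] (hidx : K.index = 4) (Q : Sylow 2 K)
    (hQ : IsKleinFour (Q : Subgroup K))
    (hone : ∀ s t : K, orderOf s = 2 → orderOf t = 2 → IsConj s t) :
    ∃ θ : Fin 4 → IrrCharacter K, ∃ δ : Fin 4 → ℤ, Function.Injective θ ∧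
      (∀ a, δ a = 1 ∨ δ a = -1) ∧
      (∀ a (k : K), 2 ∣ orderOf k → (θ a : K → ℂ) k = (δ a : ℂ)) ∧
      OneRelation (signedReg θ δ) ∧
      (∀ ξ ∈ principalBlock M C, ∃ a, ∀ k : K, (ξ : C → ℂ) k = (θ a : K → ℂ) k) ∧
      (∀ a, Nat.card {ξ : IrrCharacter C //
        ξ ∈ principalBlock M C ∧ ∀ k : K, (ξ : C → ℂ) k = (θ a : K → ℂ) k} = 4) ∧
      (∀ ξ : IrrCharacter C, ξ ∉ principalBlock M C → ∀ a,
        classInner (fun k : K => (ξ : C → ℂ) k) (θ a : K → ℂ) = 0) ∧
      blockRank 2 (principalBlock M C) = 3 := by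
  classical
  haveI := CfsgLib.Blocks.isPrime_of_isPModular hM
  haveI : M.IsMaximal := hM.2.1
  obtain ⟨θ, δ, hinj, hmem, hδ, hsing, hone', hrank⟩ := klein_data M hM Q hQ hone
  have hB : IsPBlock M (principalBlock M C) := principalBlock_isPBlock M C
  have hb : IsPBlock M (principalBlock M K) := principalBlock_isPBlock M K
  obtain ⟨D, hD⟩ := CfsgLib.BrauerPairs.exists_isDefectGroup (p := 2) hM hB
  have hPD : IsDefectGroup 2 M (principalBlock M C) (P : Subgroup C) :=
    (isDefectGroup_sylow_iff hM P hB ⟨D, hD⟩).2 (CfsgLib.SmallBlocks.blockDefect_principal).ge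
  have htriv : ∀ g : C, conjIrr K g (trivIrr K) = trivIrr K := fun g =>
    Subtype.ext (funext fun n => (conjIrr_apply K g (trivIrr K) n).trans rfl)
  have hstab : ∀ g : C, StabilizesBlock K (principalBlock M K) g := by
    intro g
    refine ⟨by rw [Subgroup.normalizer_eq_top K]; exact Subgroup.mem_top g, fun χ hχ =>
      ⟨conjIrr K g χ, ?_, fun k k' h => ?_⟩⟩
    · refine CfsgLib.Blocks.mem_of_sameBlock hb (trivIrr_mem_principalBlock K) ?_
      have h := sameBlock_conjIrr K g
        (CfsgLib.Blocks.sameBlock_of_mem hb (trivIrr_mem_principalBlock K) hχ)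
      rwa [htriv] at h
    · rw [conjIrr_apply]
      refine congrArg _ (Subtype.ext ?_)
      rw [MulAut.conjNormal_apply, h]
      group
  have hcov : ∃ χ ∈ principalBlock M C, ∃ η ∈ principalBlock M K,
      classInner (fun n : K => (χ : C → ℂ) n) (η : K → ℂ) ≠ 0 :=
    ⟨trivIrr C, trivIrr_mem_principalBlock C, trivIrr K, trivIrr_mem_principalBlock K, by
      rw [show (fun n : K => ((trivIrr C : IrrCharacter C) : C → ℂ) n) =
        ((trivIrr K : IrrCharacter K) : K → ℂ) from rfl, classInner_self_of_isIrr (trivIrr K).2]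
      exact one_ne_zero⟩
  obtain ⟨-, -, hres, hcount, -, hrk⟩ := Cfsg.Agent.S4640.result 2 M hM K ⟨2, by rw [hidx]; rfl⟩
    (principalBlock M K) hb hstab (principalBlock M C) hB hcov P hPD hab
  refine ⟨θ, δ, hinj, hδ, hsing, hone', fun ξ hξ => ?_, fun a => ?_, fun ξ hξ a => ?_, ?_⟩
  · obtain ⟨η, hη, h⟩ := hres ξ hξ
    obtain ⟨a, rfl⟩ := (hmem η).1 hη
    exact ⟨a, h⟩
  · rw [hcount (θ a) ((hmem _).2 ⟨a, rfl⟩), hidx]
  · by_contra hne
    obtain ⟨χ, hχ, η, hη, h⟩ := hcov
    have hk : K.index = 2 ^ 2 := by rw [hidx]; rfl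
    have e1 := CfsgLib.BrauerPairs.redElem_eq_subIdem_of_covers hM hk hb hstab hB hχ hη h
    have e2 := CfsgLib.BrauerPairs.redElem_eq_subIdem_of_covers hM hk hb hstab
      (CfsgLib.Blocks.isPBlock_blockOf ξ) (CfsgLib.Blocks.mem_blockOf_self ξ)
      ((hmem _).2 ⟨a, rfl⟩) hne
    exact hξ (CfsgLib.BrauerPairs.redElem_blockCoeff_injective hB
      (CfsgLib.Blocks.isPBlock_blockOf ξ) (e1.trans e2.symm) ▸ CfsgLib.Blocks.mem_blockOf_self ξ)
  · rw [hrk, hrank]

end CfsgLib.SixteenNine
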