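import Mathlib.Algebra.Order.BigOperators.Group.Finset
import Mathlib.Algebra.BigOperators.Ring.Finset
import Mathlib.Algebra.BigOperators.Fin
import Mathlib.Data.Fintype.Pi
import Mathlib.Tactic

/-!
# Two orthogonal families of four integral columns with a common row sum

The integral lemma behind the principal 2-block with elementary abelian Sylow group of order 16
and inertial index 9: the columns have 16 rows or at most 8.
-/

set_option autoImplicit false

open Finset

namespace CfsgLib.SixteenNine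

/-- The vectors with two entries one and two entries zero. -/
def pairList : Finset (Fin 4 → ℤ) :=
  {![1, 1, 0, 0], ![1, 0, 1, 0], ![1, 0, 0, 1], ![0, 1, 1, 0], ![0, 1, 0, 1], ![0, 0, 1, 1]}

/-- The vectors with entries `1`, `1`, `-1`, `0`. -/
def tripleList : Finset (Fin 4 → ℤ) :=
  {![0, 1, 1, -1], ![0, 1, -1, 1], ![0, -1, 1, 1], ![1, 0, 1, -1], ![1, 0, -1, 1], ![-1, 0, 1, 1],
    ![1, 1, 0, -1], ![1, -1, 0, 1], ![-1, 1, 0, 1], ![1, 1, -1, 0], ![1, -1, 1, 0], ![-1, 1, 1, 0]}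

/-- The unit vectors. -/
def unitList : Finset (Fin 4 → ℤ) :=
  {![1, 0, 0, 0], ![0, 1, 0, 0], ![0, 0, 1, 0], ![0, 0, 0, 1]}

theorem small_table : ∀ f : Fin 4 → Fin 3,
    ((∑ a, ((f a : ℕ) : ℤ) - 4 = 2 ∧ ∑ a, (((f a : ℕ) : ℤ) - 1) ^ 2 = 2) →
      (fun a => ((f a : ℕ) : ℤ) - 1) ∈ pairList) ∧
    ((∑ a, ((f a : ℕ) : ℤ) - 4 = 1 ∧ ∑ a, (((f a : ℕ) : ℤ) - 1) ^ 2 = 3) →
      (fun a => ((f a : ℕ) : ℤ) - 1) ∈ tripleList) ∧
    ((∑ a, ((f a : ℕ) : ℤ) - 4 = 1 ∧ ∑ a, (((f a : ℕ) : ℤ) - 1) ^ 2 = 1) →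
      (fun a => ((f a : ℕ) : ℤ) - 1) ∈ unitList) := by
  decide +kernel

/-- The short vectors with small sum. -/
theorem short_vector (v : Fin 4 → ℤ) :
    (∑ a, v a = 2 → ∑ a, v a ^ 2 = 2 → v ∈ pairList) ∧
    (∑ a, v a = 1 → ∑ a, v a ^ 2 = 3 → v ∈ tripleList) ∧
    (∑ a, v a = 1 → ∑ a, v a ^ 2 = 1 → v ∈ unitList) := by
  by_cases hv : ∀ a, -1 ≤ v a ∧ v a ≤ 1
  · let f : Fin 4 → Fin 3 := fun a => ⟨(v a + 1).toNat, by have := hv a; omega⟩
    have hf : ∀ a, ((f a : ℕ) : ℤ) - 1 = v a := fun a => by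
      have := hv a
      simp only [f]
      omega
    have hs : ∑ a, ((f a : ℕ) : ℤ) - 4 = ∑ a, v a := by
      rw [← sum_congr rfl fun a _ => hf a, sum_sub_distrib]
      simp
    have h := small_table f
    simp only [hs, hf] at h
    exact ⟨fun h1 h2 => h.1 ⟨h1, h2⟩, fun h1 h2 => h.2.1 ⟨h1, h2⟩, fun h1 h2 => h.2.2 ⟨h1, h2⟩⟩
  · push Not at hv
    obtain ⟨a, ha⟩ := hv
    have h4 : 4 ≤ v a ^ 2 := by
      by_cases h : -1 ≤ v a
      · nlinarith [ha h]
      · nlinarith
    have hle : v a ^ 2 ≤ ∑ c, v c ^ 2 :=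
      single_le_sum (fun c _ => sq_nonneg (v c)) (mem_univ a)
    exact ⟨fun _ h => by omega, fun _ h => by omega, fun _ h => by omega⟩

theorem unit_mul_eq_zero : ∀ u ∈ unitList, ∀ a c : Fin 4, a ≠ c → u a * u c = 0 := by
  decide +kernel

theorem no_one_pair : ∀ P ∈ pairList, ∀ T ∈ tripleList,
    ¬ ∀ a c : Fin 4, a ≠ c → P a * P c + T a * T c = 0 := by
  decide +kernel

theorem two_pairs : ∀ P ∈ pairList, ∀ Q ∈ pairList, ∀ S ∈ tripleList, ∀ T ∈ tripleList,
    (∀ a c : Fin 4, a ≠ c → P a * P c + Q a * Q c + S a * S c + T a * T c = 0) →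
      P = Q ∧ ∃ a, P a = 1 ∧ S a + T a = 0 ∧ S a ^ 2 = 1 := by
  decide +kernel

theorem no_two_pairs : ∀ P ∈ pairList, ∀ U ∈ unitList, ∀ V ∈ unitList,
    ¬ (∀ c : Fin 4, 2 * P c + (U c - V c) = 1) := by
  decide +kernel

variable {ι : Type*} [Fintype ι]

/-- The sum of the squares of the row sums. -/
theorem sum_sq_rows {y : ι → Fin 4 → ℤ} {b : ι → ℤ} (hy : ∀ i, ∑ a, y i a = b i)
    (hyy : ∀ a c, ∑ i, y i a * y i c = if a = c then 4 else 0) : ∑ i, b i ^ 2 = 16 := by
  have h : ∑ i, b i ^ 2 = ∑ a, ∑ c, ∑ i, y i a * y i c := by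
    rw [sum_congr rfl fun i _ => show b i ^ 2 = ∑ a, ∑ c, y i a * y i c by
      rw [← sum_mul_sum, hy i, sq]]
    rw [sum_comm]
    exact sum_congr rfl fun a _ => sum_comm
  rw [h]
  simp [hyy]

theorem sum_dot_mul {y z : ι → Fin 4 → ℤ} {G : Fin 4 → Fin 4 → ℤ}
    (h : ∀ a c, ∑ i, y i a * z i c = G a c) (u v : Fin 4 → ℤ) :
    ∑ j, (∑ a, u a * y j a) * (∑ c, v c * z j c) = ∑ a, ∑ c, u a * v c * G a c := by
  simp only [sum_mul_sum]
  rw [sum_comm]
  refine sum_congr rfl fun a _ => ?_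
  rw [sum_comm]
  refine sum_congr rfl fun c _ => ?_
  rw [← h a c, mul_sum]
  exact sum_congr rfl fun j _ => by ring

variable {y z : ι → Fin 4 → ℤ} {b : ι → ℤ}

/-- The diagonal of the complementary form is below sixteen. -/
theorem diag_lt (hy : ∀ i, ∑ a, y i a = b i) (hz : ∀ i, ∑ a, z i a = b i)
    (hyy : ∀ a c, ∑ i, y i a * y i c = if a = c then 4 else 0)
    (hzz : ∀ a c, ∑ i, z i a * z i c = if a = c then 4 else 0)
    (hyz : ∀ a c, ∑ i, y i a * z i c = 1) {d : ι → ℤ} (hd : ∀ i, d i ≠ 0)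
    (hdy : ∀ a, ∑ i, d i * y i a = 0) (hdz : ∀ a, ∑ i, d i * z i a = 0) (i : ι) :
    4 * ∑ a, y i a ^ 2 + 4 * ∑ a, z i a ^ 2 - b i ^ 2 < 16 := by
  classical
  set A : ι → ℤ := fun j => ∑ a, y i a * y j a with hA
  set C : ι → ℤ := fun j => ∑ a, z i a * z j a with hC
  set N : ι → ℤ := fun j => 4 * A j + 4 * C j - b i * b j with hN
  set n := ∑ a, y i a ^ 2 with hn
  set m := ∑ a, z i a ^ 2 with hm
  have hNi : N i = 4 * n + 4 * m - b i ^ 2 := by
    simp only [hN, hA, hC, hn, hm, sq]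
  have hAA : ∑ j, A j * A j = 4 * n := by
    rw [hA, sum_dot_mul hyy (y i) (y i), hn, mul_sum]
    simp only [mul_ite, mul_zero, sum_ite_eq, mem_univ, if_true]
    exact sum_congr rfl fun a _ => by ring
  have hCC : ∑ j, C j * C j = 4 * m := by
    rw [hC, sum_dot_mul hzz (z i) (z i), hm, mul_sum]
    simp only [mul_ite, mul_zero, sum_ite_eq, mem_univ, if_true]
    exact sum_congr rfl fun a _ => by ring
  have hAC : ∑ j, A j * C j = b i ^ 2 := by
    rw [hA, hC, sum_dot_mul hyz (y i) (z i)]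
    simp only [mul_one]
    rw [← sum_mul_sum, hy i, hz i, sq]
  have hAb : ∑ j, A j * b j = 4 * b i := by
    rw [sum_congr rfl fun j _ => show A j * b j = (∑ a, y i a * y j a) * (∑ c, (fun _ : Fin 4 => (1 : ℤ)) c * y j c) by
      simp [hA, hy j], sum_dot_mul hyy (y i) (fun _ => 1), ← hy i, mul_sum]
    simp only [mul_ite, mul_zero, sum_ite_eq, mem_univ, if_true]
    exact sum_congr rfl fun a _ => by ring
  have hCb : ∑ j, C j * b j = 4 * b i := by
    rw [sum_congr rfl fun j _ => show C j * b j = (∑ a, z i a * z j a) * (∑ c, (fun _ : Fin 4 => (1 : ℤ)) c * z j c) by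
      simp [hC, hz j], sum_dot_mul hzz (z i) (fun _ => 1), ← hz i, mul_sum]
    simp only [mul_ite, mul_zero, sum_ite_eq, mem_univ, if_true]
    exact sum_congr rfl fun a _ => by ring
  have hsq : ∑ j, N j ^ 2 = 16 * N i := by
    rw [hNi, sum_congr rfl fun j _ => show N j ^ 2 = 16 * (A j * A j) + 32 * (A j * C j) +
        16 * (C j * C j) - 8 * b i * (A j * b j) - 8 * b i * (C j * b j) + b i ^ 2 * b j ^ 2 by
      simp only [hN]; ring]
    simp only [sum_add_distrib, sum_sub_distrib, ← mul_sum, hAA, hCC, hAC, hAb, hCb,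
      sum_sq_rows hy hyy]
    ring
  have hdot : ∑ j, N j * d j = 0 := by
    have h1 : ∑ j, A j * d j = 0 := by
      simp only [hA, sum_mul]
      rw [sum_comm]
      refine sum_eq_zero fun a _ => ?_
      rw [← mul_zero (y i a), ← hdy a, mul_sum]
      exact sum_congr rfl fun j _ => by ring
    have h2 : ∑ j, C j * d j = 0 := by
      simp only [hC, sum_mul]
      rw [sum_comm]
      refine sum_eq_zero fun a _ => ?_
      rw [← mul_zero (z i a), ← hdz a, mul_sum]
      exact sum_congr rfl fun j _ => by ring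
    have h3 : ∑ j, b j * d j = 0 := by
      simp only [← hy, sum_mul]
      rw [sum_comm]
      refine sum_eq_zero fun a _ => ?_
      rw [← hdy a]
      exact sum_congr rfl fun j _ => by ring
    rw [sum_congr rfl fun j _ => show N j * d j = 4 * (A j * d j) + 4 * (C j * d j) -
      b i * (b j * d j) by simp only [hN]; ring]
    simp only [sum_add_distrib, sum_sub_distrib, ← mul_sum, h1, h2, h3, mul_zero, add_zero,
      sub_self]
  rw [← hNi]
  by_contra hcon
  push Not at hcon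
  have hrest : ∀ j, j ≠ i → N j = 0 := by
    intro j hj
    have h1 : N i ^ 2 + N j ^ 2 ≤ ∑ j, N j ^ 2 := by
      rw [← sum_pair (f := fun j => N j ^ 2) (Ne.symm hj)]
      exact sum_le_sum_of_subset_of_nonneg (subset_univ _) fun _ _ _ => sq_nonneg _
    have h2 : N j ^ 2 ≤ 0 := by nlinarith
    exact pow_eq_zero_iff two_ne_zero |>.1 (le_antisymm h2 (sq_nonneg _))
  rw [sum_eq_single i (fun j _ hj => by rw [hrest j hj, zero_mul]) (fun h => absurd (mem_univ i) h)]
    at hdot
  rcases mul_eq_zero.1 hdot with h | h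
  · omega
  · exact hd i h

/-- The rows after normalisation of the signs. -/
theorem card_core (hy : ∀ i, ∑ a, y i a = b i) (hz : ∀ i, ∑ a, z i a = b i)
    (hyy : ∀ a c, ∑ i, y i a * y i c = if a = c then 4 else 0)
    (hzz : ∀ a c, ∑ i, z i a * z i c = if a = c then 4 else 0)
    (hyz : ∀ a c, ∑ i, y i a * z i c = 1) (hb : ∀ i, 0 < b i) {d : ι → ℤ} (hd : ∀ i, d i ≠ 0)
    (hdy : ∀ a, ∑ i, d i * y i a = 0) (hdz : ∀ a, ∑ i, d i * z i a = 0) :
    Fintype.card ι = 16 ∨ Fintype.card ι ≤ 8 := by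
  classical
  have hb2 := sum_sq_rows hy hyy
  have hAtot : ∀ w : ι → Fin 4 → ℤ, (∀ a c, ∑ i, w i a * w i c = if a = c then 4 else 0) →
      ∑ i, ∑ a, w i a ^ 2 = 16 := by
    intro w hw
    rw [sum_comm, sum_congr rfl fun a _ => show ∑ i, w i a ^ 2 = 4 by
      rw [sum_congr rfl fun i _ => sq (w i a), hw a a, if_pos rfl]]
    simp
  -- the possible rows
  have hlow : ∀ w : Fin 4 → ℤ, ∀ s : ℤ, ∑ a, w a = s → s ≤ ∑ a, w a ^ 2 ∧
      (∑ a, w a ^ 2 - s) % 2 = 0 ∧ s ^ 2 ≤ 4 * ∑ a, w a ^ 2 := by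
    intro w s hs
    subst hs
    simp only [Fin.sum_univ_four]
    have hpar : ∀ x : ℤ, 2 ∣ x ^ 2 - x := fun x => by
      rcases Int.even_or_odd x with ⟨k, rfl⟩ | ⟨k, rfl⟩
      · exact ⟨2 * k ^ 2 - k, by ring⟩
      · exact ⟨2 * k ^ 2 + k, by ring⟩
    have hpos : ∀ x : ℤ, x ≤ x ^ 2 := fun x => by nlinarith [Int.le_self_sq x]
    refine ⟨by linarith [hpos (w 0), hpos (w 1), hpos (w 2), hpos (w 3)], ?_,
      by nlinarith [sq_nonneg (w 0 - w 1), sq_nonneg (w 2 - w 3), sq_nonneg (w 0 + w 1 - w 2 - w 3)]⟩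
    have := hpar (w 0); have := hpar (w 1); have := hpar (w 2); have := hpar (w 3)
    omega
  have hrow : ∀ i, b i < 4 ∧
      (b i = 2 → ∑ a, y i a ^ 2 = 2 ∧ ∑ a, z i a ^ 2 = 2) ∧
      (b i = 1 → (∑ a, y i a ^ 2 = 1 ∧ ∑ a, z i a ^ 2 = 1) ∨
        (∑ a, y i a ^ 2 = 3 ∧ ∑ a, z i a ^ 2 = 1) ∨ (∑ a, y i a ^ 2 = 1 ∧ ∑ a, z i a ^ 2 = 3)) := by
    intro i
    have h := diag_lt hy hz hyy hzz hyz hd hdy hdz i
    obtain ⟨h1, h2, h3⟩ := hlow (y i) (b i) (hy i)
    obtain ⟨h1', h2', h3'⟩ := hlow (z i) (b i) (hz i)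
    refine ⟨by nlinarith, fun e => ?_, fun e => ?_⟩ <;> rw [e] at h h1 h2 h1' h2' <;> omega
  set n := Fintype.card ι with hn
  by_cases h3 : ∃ i, b i = 3
  · right
    obtain ⟨i, hi⟩ := h3
    have h1 : ((univ.erase i).card : ℤ) ≤ ∑ j ∈ univ.erase i, b j ^ 2 := by
      rw [Finset.card_eq_sum_ones, Nat.cast_sum]
      exact sum_le_sum fun j _ => by
        have := hb j
        push_cast
        nlinarith
    have h2 := add_sum_erase univ (fun j => b j ^ 2) (mem_univ i)
    rw [hb2, hi] at h2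
    rw [card_erase_of_mem (mem_univ i), card_univ, ← hn] at h1
    omega
  push Not at h3
  have hb12 : ∀ i, b i = 1 ∨ b i = 2 := fun i => by
    have := (hrow i).1; have := hb i; have := h3 i; omega
  set S := univ.filter fun i => b i = 2 with hS
  set Ty := univ.filter fun i => ∑ a, y i a ^ 2 = 3 with hTy
  set Tz := univ.filter fun i => ∑ a, z i a ^ 2 = 3 with hTz
  have hcount : n + 3 * S.card = 16 := by
    have h1 : ∀ i, b i ^ 2 = 1 + 3 * (if b i = 2 then (1 : ℤ) else 0) := fun i => by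
      rcases hb12 i with e | e <;> simp [e]
    rw [sum_congr rfl fun i _ => h1 i, sum_add_distrib, ← mul_sum, sum_boole, ← hS] at hb2
    simp [← hn] at hb2
    omega
  have hcT : ∀ (w : ι → Fin 4 → ℤ), (∀ a c, ∑ i, w i a * w i c = if a = c then 4 else 0) →
      (∀ i, b i = 2 → ∑ a, w i a ^ 2 = 2) →
      (∀ i, b i = 1 → ∑ a, w i a ^ 2 = 1 ∨ ∑ a, w i a ^ 2 = 3) →
      (univ.filter fun i => ∑ a, w i a ^ 2 = 3).card = S.card := by
    intro w hw h2 h1
    have hA : ∀ i, ∑ a, w i a ^ 2 = 1 + (if b i = 2 then (1 : ℤ) else 0) +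
        2 * (if ∑ a, w i a ^ 2 = 3 then (1 : ℤ) else 0) := fun i => by
      rcases hb12 i with e | e
      · rcases h1 i e with e' | e' <;> simp [e, e']
      · simp [e, h2 i e]
    have h := hAtot w hw
    rw [sum_congr rfl fun i _ => hA i, sum_add_distrib, sum_add_distrib, ← mul_sum, sum_boole,
      sum_boole, ← hS] at h
    simp [← hn] at h
    omega
  have hTyc : Ty.card = S.card := hcT y hyy (fun i e => ((hrow i).2.1 e).1) fun i e => by
    rcases (hrow i).2.2 e with h | h | h <;> omega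
  have hTzc : Tz.card = S.card := hcT z hzz (fun i e => ((hrow i).2.1 e).2) fun i e => by
    rcases (hrow i).2.2 e with h | h | h <;> omega
  -- the shape of the rows
  have hST : ∀ i ∈ S, i ∉ Ty := fun i hi h => by
    have := ((hrow i).2.1 (mem_filter.1 hi).2).1
    have := (mem_filter.1 h).2
    omega
  have hSTz : ∀ i ∈ S, i ∉ Tz := fun i hi h => by
    have := ((hrow i).2.1 (mem_filter.1 hi).2).2
    have := (mem_filter.1 h).2
    omega
  have hyP : ∀ i ∈ S, y i ∈ pairList := fun i hi => by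
    have e := (mem_filter.1 hi).2
    exact (short_vector (y i)).1 ((hy i).trans e) ((hrow i).2.1 e).1
  have hzP : ∀ i ∈ S, z i ∈ pairList := fun i hi => by
    have e := (mem_filter.1 hi).2
    exact (short_vector (z i)).1 ((hz i).trans e) ((hrow i).2.1 e).2
  have hyT : ∀ i ∈ Ty, y i ∈ tripleList ∧ b i = 1 := fun i hi => by
    have e : b i = 1 := (hb12 i).resolve_right fun e => hST i (mem_filter.2 ⟨mem_univ _, e⟩) hi
    exact ⟨(short_vector (y i)).2.1 ((hy i).trans e) (mem_filter.1 hi).2, e⟩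
  have hyU : ∀ i, i ∉ S → i ∉ Ty → y i ∈ unitList := fun i h1 h2 => by
    have e : b i = 1 := (hb12 i).resolve_right fun e => h1 (mem_filter.2 ⟨mem_univ _, e⟩)
    refine (short_vector (y i)).2.2 ((hy i).trans e) ?_
    rcases (hrow i).2.2 e with h | h | h
    · exact h.1
    · exact (h2 (mem_filter.2 ⟨mem_univ i, h.1⟩)).elim
    · exact h.1
  have hoff : ∀ a c, a ≠ c → ∑ i ∈ S ∪ Ty, y i a * y i c = 0 := fun a c hac => by
    rw [sum_subset (subset_univ _) fun i _ hi => ?_, hyy, if_neg hac]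
    simp only [mem_union, not_or] at hi
    exact unit_mul_eq_zero _ (hyU i hi.1 hi.2) a c hac
  have hdis : Disjoint S Ty := disjoint_left.2 hST
  rcases Nat.lt_or_ge S.card 3 with hlt | hge
  · interval_cases hc : S.card
    · left; omega
    · exfalso
      obtain ⟨i, hi⟩ := card_eq_one.1 hc
      obtain ⟨t, ht⟩ := card_eq_one.1 hTyc
      refine no_one_pair (y i) (hyP i (by simp [hi])) (y t) (hyT t (by simp [ht])).1 fun a c hac => ?_
      have h := hoff a c hac
      rw [sum_union hdis, hi, ht] at h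
      simpa using h
    · exfalso
      obtain ⟨i, j, hij, hSe⟩ := card_eq_two.1 hc
      obtain ⟨s, t, hst, hTe⟩ := card_eq_two.1 hTyc
      obtain ⟨hPQ, a, hPa, hsum, hsq⟩ := two_pairs (y i) (hyP i (by simp [hSe])) (y j)
        (hyP j (by simp [hSe])) (y s) (hyT s (by simp [hTe])).1 (y t) (hyT t (by simp [hTe])).1
        fun a c hac => by
          have h := hoff a c hac
          rw [sum_union hdis, hSe, hTe, sum_pair hij, sum_pair hst] at h
          linarith
      -- outside the four special rows the coordinate `a` vanishes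
      have hta : y t a ^ 2 = 1 := by rw [show y t a = - y s a by omega]; simp [hsq]
      have hout : ∀ k, k ∉ S ∪ Ty → y k a = 0 := by
        intro k hk
        have h := hyy a a
        rw [if_pos rfl, ← sum_add_sum_compl (S ∪ Ty), sum_union hdis, hSe, hTe, sum_pair hij,
          sum_pair hst, ← congrFun hPQ a, hPa] at h
        have h0 : ∑ i ∈ ({i, j} ∪ {s, t} : Finset ι)ᶜ, y i a * y i a = 0 := by
          linarith [sq (y s a), sq (y t a), hsq, hta]
        rw [sum_eq_zero_iff_of_nonneg fun i _ => mul_self_nonneg _] at h0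
        exact mul_self_eq_zero.1 (h0 k (by rw [mem_compl, ← hSe, ← hTe]; exact hk))
      have hyz2 : ∀ w : ι → Fin 4 → ℤ, ∀ c, ∑ k, y k a * w k c =
          w i c + w j c + y s a * (w s c - w t c) := by
        intro w c
        rw [← sum_subset (subset_univ (S ∪ Ty)) (fun k _ hk => by rw [hout k hk, zero_mul]),
          sum_union hdis, hSe, hTe, sum_pair hij, sum_pair hst, ← congrFun hPQ a, hPa,
          show y t a = - y s a by omega]
        ring
      -- the same structure for the second family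
      have hzsp : ∀ k ∈ Ty, z k ∈ unitList := fun k hk => by
        have e := (hyT k hk).2
        refine (short_vector (z k)).2.2 ((hz k).trans e) ?_
        have := (mem_filter.1 hk).2
        rcases (hrow k).2.2 e with h | h | h <;> omega
      have hzU : ∀ k, k ∉ S → k ∉ Tz → z k ∈ unitList := fun k h1 h2 => by
        have e : b k = 1 := (hb12 k).resolve_right fun e => h1 (mem_filter.2 ⟨mem_univ _, e⟩)
        refine (short_vector (z k)).2.2 ((hz k).trans e) ?_
        rcases (hrow k).2.2 e with h | h | h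
        · exact h.2
        · exact h.2
        · exact (h2 (mem_filter.2 ⟨mem_univ k, h.2⟩)).elim
      have hzT : ∀ k ∈ Tz, z k ∈ tripleList := fun k hk =>
        (short_vector (z k)).2.1 ((hz k).trans ((hb12 k).resolve_right fun e =>
          hSTz k (mem_filter.2 ⟨mem_univ _, e⟩) hk)) (mem_filter.1 hk).2
      obtain ⟨s', t', hst', hTe'⟩ := card_eq_two.1 hTzc
      have hdis' : Disjoint S Tz := disjoint_left.2 hSTz
      obtain ⟨hPQ', -⟩ := two_pairs (z i) (hzP i (by simp [hSe])) (z j)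
        (hzP j (by simp [hSe])) (z s') (hzT s' (by simp [hTe'])) (z t') (hzT t' (by simp [hTe']))
        fun c c' hcc => by
          have h : ∑ k ∈ S ∪ Tz, z k c * z k c' = 0 := by
            rw [sum_subset (subset_univ _) fun k _ hk => ?_, hzz, if_neg hcc]
            simp only [mem_union, not_or] at hk
            exact unit_mul_eq_zero _ (hzU k hk.1 hk.2) c c' hcc
          rw [sum_union hdis', hSe, hTe', sum_pair hij, sum_pair hst'] at h
          linarith
      have hsa : y s a = 1 ∨ y s a = -1 := sq_eq_one_iff.1 hsq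
      have hkey : ∀ c, 2 * z i c + y s a * (z s c - z t c) = 1 := fun c => by
        rw [← hyz a c, hyz2 z c, ← congrFun hPQ' c]
        ring
      rcases hsa with e | e <;> simp only [e] at hkey
      · exact no_two_pairs (z i) (hzP i (by simp [hSe])) (z s) (hzsp s (by simp [hTe]))
          (z t) (hzsp t (by simp [hTe])) fun c => by linarith [hkey c]
      · exact no_two_pairs (z i) (hzP i (by simp [hSe])) (z t) (hzsp t (by simp [hTe]))
          (z s) (hzsp s (by simp [hTe])) fun c => by linarith [hkey c]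
  · right; omega

/-- Two orthogonal families of four integral columns: sixteen rows or at most eight. -/
theorem card_eq_sixteen_or_le (hy : ∀ i, ∑ a, y i a = b i) (hz : ∀ i, ∑ a, z i a = b i)
    (hyy : ∀ a c, ∑ i, y i a * y i c = if a = c then 4 else 0)
    (hzz : ∀ a c, ∑ i, z i a * z i c = if a = c then 4 else 0)
    (hyz : ∀ a c, ∑ i, y i a * z i c = 1) (hb : ∀ i, b i ≠ 0) {d : ι → ℤ} (hd : ∀ i, d i ≠ 0)
    (hdy : ∀ a, ∑ i, d i * y i a = 0) (hdz : ∀ a, ∑ i, d i * z i a = 0) :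
    Fintype.card ι = 16 ∨ Fintype.card ι ≤ 8 := by
  classical
  set s : ι → ℤ := fun i => if 0 < b i then 1 else -1 with hs
  have hs2 : ∀ i, s i * s i = 1 := fun i => by simp only [hs]; split_ifs <;> rfl
  have hmul : ∀ (u v : ι → Fin 4 → ℤ) a c,
      ∑ i, (s i * u i a) * (s i * v i c) = ∑ i, u i a * v i c := fun u v a c =>
    sum_congr rfl fun i _ => by rw [mul_mul_mul_comm, hs2, one_mul]
  refine card_core (y := fun i a => s i * y i a) (z := fun i a => s i * z i a)
    (b := fun i => s i * b i) (fun i => by rw [← mul_sum, hy]) (fun i => by rw [← mul_sum, hz])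
    (fun a c => by rw [hmul, hyy]) (fun a c => by rw [hmul, hzz]) (fun a c => by rw [hmul, hyz])
    (fun i => ?_) (d := fun i => s i * d i) (fun i => mul_ne_zero (fun h => by
      have := hs2 i; rw [h] at this; simp at this) (hd i)) (fun a => ?_) (fun a => ?_)
  · have := hb i
    simp only [hs]
    split_ifs <;> omega
  · rw [← hdy a]
    exact sum_congr rfl fun i _ => by rw [mul_mul_mul_comm, hs2, one_mul]
  · rw [← hdz a]
    exact sum_congr rfl fun i _ => by rw [mul_mul_mul_comm, hs2, one_mul]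

end CfsgLib.SixteenNine
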