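import Cfsg.Agent.Lib.SixteenNine.Pair
import Cfsg.Agent.Lib.Transfer.Abelian
import Cfsg.Agent.Lib.BlockLocal.KleinFour
import Cfsg.Agent.S0942

/-!
# The local subgroups for inertial index nine over an elementary abelian group of order sixteen
-/

set_option autoImplicit false
set_option linter.style.haveILetI false
set_option linter.unusedSectionVars false

open Cfsg
open scoped commutatorElement

namespace CfsgLib.SixteenNine

universe u

variable {G : Type u} [Group G] [Finite G]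

/-- The two subgroups of order four inside the Sylow subgroup. -/
structure PairData (P : Sylow 2 G) (A B : Subgroup G) : Prop where
  comm : ∀ x ∈ (P : Subgroup G), ∀ y ∈ (P : Subgroup G), x * y = y * x
  sq : ∀ x ∈ (P : Subgroup G), x * x = 1
  card_P : Nat.card (P : Subgroup G) = 16
  le_left : A ≤ (P : Subgroup G)
  le_right : B ≤ (P : Subgroup G)
  card_left : Nat.card A = 4
  card_right : Nat.card B = 4
  inf_eq : ∀ x, x ∈ A → x ∈ B → x = 1
  dec : ∀ x ∈ (P : Subgroup G), ∃ a ∈ A, ∃ c ∈ B, a * c = x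
  stable_left : ∀ n ∈ Subgroup.normalizer ((P : Subgroup G) : Set G), ∀ a ∈ A, n * a * n⁻¹ ∈ A
  stable_right : ∀ n ∈ Subgroup.normalizer ((P : Subgroup G) : Set G), ∀ a ∈ B, n * a * n⁻¹ ∈ B
  fix_left : ∀ n ∈ Subgroup.normalizer ((P : Subgroup G) : Set G), ∀ a ∈ A, a ≠ 1 →
    n * a * n⁻¹ = a → ∀ a' ∈ A, n * a' * n⁻¹ = a'
  fix_right : ∀ n ∈ Subgroup.normalizer ((P : Subgroup G) : Set G), ∀ a ∈ B, a ≠ 1 →
    n * a * n⁻¹ = a → ∀ a' ∈ B, n * a' * n⁻¹ = a'
  trans : ∀ a ∈ A, a ≠ 1 → ∀ a' ∈ A, a' ≠ 1 → ∀ c ∈ B, c ≠ 1 → ∀ c' ∈ B, c' ≠ 1 →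
    ∃ n ∈ Subgroup.normalizer ((P : Subgroup G) : Set G), n * a * n⁻¹ = a' ∧ n * c * n⁻¹ = c'

variable {P : Sylow 2 G} {A B : Subgroup G}

theorem PairData.symm (h : PairData P A B) : PairData P B A where
  comm := h.comm
  sq := h.sq
  card_P := h.card_P
  le_left := h.le_right
  le_right := h.le_left
  card_left := h.card_right
  card_right := h.card_left
  inf_eq x hx hx' := h.inf_eq x hx' hx
  dec x hx := by
    obtain ⟨a, ha, c, hc, rfl⟩ := h.dec x hx
    exact ⟨c, hc, a, ha, h.comm _ (h.le_right hc) _ (h.le_left ha)⟩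
  stable_left := h.stable_right
  stable_right := h.stable_left
  fix_left := h.fix_right
  fix_right := h.fix_left
  trans a ha ha1 a' ha' ha1' c hc hc1 c' hc' hc1' := by
    obtain ⟨n, hn, e1, e2⟩ := h.trans c hc hc1 c' hc' hc1' a ha ha1 a' ha' ha1'
    exact ⟨n, hn, e2, e1⟩

/-- The decomposition. -/
theorem exists_pairData (P : Sylow 2 G) (hcard : Nat.card P = 16) (hel : ∀ x : P, x ^ 2 = 1)
    (he : (Subgroup.centralizer ((P : Subgroup G) : Set G)).relIndex
      (Subgroup.normalizer ((P : Subgroup G) : Set G)) = 9) :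
    ∃ A B : Subgroup G, PairData P A B := by
  classical
  have hsq : ∀ x ∈ (P : Subgroup G), x * x = 1 := fun x hx => by
    have h := congrArg Subtype.val (hel ⟨x, hx⟩)
    rwa [pow_two] at h
  have hcomm : ∀ x ∈ (P : Subgroup G), ∀ y ∈ (P : Subgroup G), x * y = y * x := fun x hx y hy => by
    have hi : ∀ z ∈ (P : Subgroup G), z⁻¹ = z := fun z hz => inv_eq_of_mul_eq_one_left (hsq z hz)
    calc x * y = (x * y)⁻¹ := (hi _ (mul_mem hx hy)).symm
      _ = y⁻¹ * x⁻¹ := mul_inv_rev x y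
      _ = y * x := by rw [hi x hx, hi y hy]
  set N := Subgroup.normalizer ((P : Subgroup G) : Set G) with hN
  set f : N →* MulAut (P : Subgroup G) := (P : Subgroup G).normalizerMonoidHom with hf
  have hE : Nat.card f.range = 9 := by
    rw [← Subgroup.index_ker, hf, Subgroup.normalizerMonoidHom_ker]
    exact he
  obtain ⟨F₁, F₂, c1, c2, hinf, hdec, s1, s2, htr, f1, f2⟩ := exists_pair f.range hcard hE
  have hval : ∀ (n : N) (x : (P : Subgroup G)), ((f n x : (P : Subgroup G)) : G) =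
      (n : G) * (x : G) * (n : G)⁻¹ := fun n x => rfl
  refine ⟨F₁.map (P : Subgroup G).subtype, F₂.map (P : Subgroup G).subtype, ?_⟩
  refine {
    comm := hcomm
    sq := hsq
    card_P := hcard
    le_left := Subgroup.map_subtype_le _
    le_right := Subgroup.map_subtype_le _
    card_left := by rw [Subgroup.card_map_of_injective (Subgroup.subtype_injective _), c1]
    card_right := by rw [Subgroup.card_map_of_injective (Subgroup.subtype_injective _), c2]
    inf_eq := ?_
    dec := ?_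
    stable_left := ?_
    stable_right := ?_
    fix_left := ?_
    fix_right := ?_
    trans := ?_ }
  · rintro _ ⟨a, ha, rfl⟩ ⟨c, hc, hca⟩
    rw [Subgroup.subtype_injective _ hca] at hc
    have h : a ∈ F₁ ⊓ F₂ := ⟨ha, hc⟩
    rw [hinf, Subgroup.mem_bot] at h
    rw [h, map_one]
  · intro x hx
    obtain ⟨a, ha, c, hc, h⟩ := hdec ⟨x, hx⟩
    exact ⟨a, Subgroup.mem_map_of_mem _ ha, c, Subgroup.mem_map_of_mem _ hc, congrArg Subtype.val h⟩
  · rintro n hn _ ⟨a, ha, rfl⟩
    exact ⟨_, s1 _ ⟨⟨n, hn⟩, rfl⟩ a ha, hval ⟨n, hn⟩ a⟩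
  · rintro n hn _ ⟨a, ha, rfl⟩
    exact ⟨_, s2 _ ⟨⟨n, hn⟩, rfl⟩ a ha, hval ⟨n, hn⟩ a⟩
  · rintro n hn _ ⟨a, ha, rfl⟩ ha1 hfix _ ⟨a', ha', rfl⟩
    have h := f1 _ ⟨⟨n, hn⟩, rfl⟩ a ha (fun h => ha1 (by rw [h, map_one]))
      (Subtype.ext ((hval ⟨n, hn⟩ a).trans hfix)) a' ha'
    exact (hval ⟨n, hn⟩ a').symm.trans (congrArg Subtype.val h)
  · rintro n hn _ ⟨a, ha, rfl⟩ ha1 hfix _ ⟨a', ha', rfl⟩
    have h := f2 _ ⟨⟨n, hn⟩, rfl⟩ a ha (fun h => ha1 (by rw [h, map_one]))
      (Subtype.ext ((hval ⟨n, hn⟩ a).trans hfix)) a' ha'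
    exact (hval ⟨n, hn⟩ a').symm.trans (congrArg Subtype.val h)
  · rintro _ ⟨a, ha, rfl⟩ ha1 _ ⟨a', ha', rfl⟩ ha1' _ ⟨c, hc, rfl⟩ hc1 _ ⟨c', hc', rfl⟩ hc1'
    obtain ⟨e, ⟨n, rfl⟩, e1, e2⟩ := htr a ha (fun h => ha1 (by rw [h, map_one])) a' ha'
      (fun h => ha1' (by rw [h, map_one])) c hc (fun h => hc1 (by rw [h, map_one])) c' hc'
      (fun h => hc1' (by rw [h, map_one]))
    exact ⟨n, n.2, (hval n a).symm.trans (congrArg Subtype.val e1),
      (hval n c).symm.trans (congrArg Subtype.val e2)⟩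

variable (h : PairData P A B)
include h

theorem PairData.eq_of_mul_eq {a a' c c' : G} (ha : a ∈ A) (ha' : a' ∈ A) (hc : c ∈ B) (hc' : c' ∈ B)
    (e : a * c = a' * c') : a = a' ∧ c = c' := by
  have e' : a'⁻¹ * a = c' * c⁻¹ := by
    rw [inv_mul_eq_iff_eq_mul, ← mul_assoc, eq_mul_inv_iff_mul_eq]
    exact e
  have h1 : a'⁻¹ * a = 1 := h.inf_eq _ (mul_mem (inv_mem ha') ha) (by
    rw [e']; exact mul_mem hc' (inv_mem hc))
  rw [inv_mul_eq_one] at h1
  subst h1
  exact ⟨rfl, mul_left_cancel e⟩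

theorem PairData.inv_eq {x : G} (hx : x ∈ (P : Subgroup G)) : x⁻¹ = x :=
  inv_eq_of_mul_eq_one_left (h.sq x hx)

theorem PairData.exists_other {c : G} : ∃ d ∈ B, d ≠ 1 ∧ d ≠ c := by
  classical
  haveI : Fintype B := Fintype.ofFinite B
  by_contra hcon
  push Not at hcon
  have h1 : (Finset.univ.image (Subtype.val : B → G)) ⊆ {1, c} := by
    intro x hx
    obtain ⟨y, -, rfl⟩ := Finset.mem_image.1 hx
    simp only [Finset.mem_insert, Finset.mem_singleton]
    by_cases hy : (y : G) = 1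
    · exact Or.inl hy
    · exact Or.inr (hcon y y.2 hy)
  have h2 := Finset.card_le_card h1
  rw [Finset.card_image_of_injective _ Subtype.val_injective, Finset.card_univ,
    ← Nat.card_eq_fintype_card, h.card_right] at h2
  have h3 : ({1, c} : Finset G).card ≤ 2 := Finset.card_le_two
  omega

/-- An element of the normalizer fixing an element off both subgroups centralizes. -/
theorem PairData.mem_centralizer_of_fix {n : G}
    (hn : n ∈ Subgroup.normalizer ((P : Subgroup G) : Set G)) {a c : G} (ha : a ∈ A) (hc : c ∈ B)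
    (ha1 : a ≠ 1) (hc1 : c ≠ 1) (hfix : n * (a * c) * n⁻¹ = a * c) :
    n ∈ Subgroup.centralizer ((P : Subgroup G) : Set G) := by
  have e : (n * a * n⁻¹) * (n * c * n⁻¹) = a * c := by rw [← hfix]; group
  obtain ⟨e1, e2⟩ := h.eq_of_mul_eq (h.stable_left n hn a ha) ha (h.stable_right n hn c hc) hc e
  rw [Subgroup.mem_centralizer_iff]
  intro x hx
  obtain ⟨a', ha', c', hc', rfl⟩ := h.dec x hx
  have h1 := h.fix_left n hn a ha ha1 e1 a' ha'
  have h2 := h.fix_right n hn c hc hc1 e2 c' hc'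
  rw [mul_inv_eq_iff_eq_mul] at h1 h2
  calc a' * c' * n = a' * (n * c') := by rw [h2, mul_assoc]
    _ = n * a' * c' := by rw [← mul_assoc, ← h1]
    _ = n * (a' * c') := mul_assoc _ _ _

theorem PairData.le_centralizer {v : G} (hv : v ∈ (P : Subgroup G)) :
    (P : Subgroup G) ≤ Subgroup.centralizer ({v} : Set G) := fun x hx =>
  Subgroup.mem_centralizer_singleton_iff.2 (h.comm x hx v hv)

/-- The centralizer of an element off both subgroups has a normal 2-complement. -/
theorem PairData.centralizer_mixed {a c : G} (ha : a ∈ A) (hc : c ∈ B) (ha1 : a ≠ 1) (hc1 : c ≠ 1) :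
    HasNormalPComplement 2 (Subgroup.centralizer ({a * c} : Set G)) := by
  have hle := h.le_centralizer (mul_mem (h.le_left ha) (h.le_right hc))
  refine CfsgLib.Transfer.hasNormalPComplement_of_le_centralizer (P.subtype hle) fun n hn => ?_
  rw [Subgroup.mem_centralizer_iff]
  intro v hv
  apply Subtype.ext
  push_cast
  have hnN : (n : G) ∈ Subgroup.normalizer ((P : Subgroup G) : Set G) := by
    refine Subgroup.mem_normalizer_fintype fun w hw => ?_
    exact (Subgroup.mem_normalizer_iff.1 hn ⟨w, hle hw⟩).1 hw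
  have hnC : (n : G) * (a * c) * (n : G)⁻¹ = a * c := by
    rw [mul_inv_eq_iff_eq_mul]
    exact Subgroup.mem_centralizer_singleton_iff.1 n.2
  exact Subgroup.mem_centralizer_iff.1 (h.mem_centralizer_of_fix hnN ha hc ha1 hc1 hnC) (v : G) hv

/-- Regular elements of the centralizer of an element off both subgroups do not change values. -/
theorem PairData.apply_mixed_mul [Fintype G] {M : Ideal AlgInt} (hM : IsPModular 2 M) {a c : G}
    (ha : a ∈ A) (hc : c ∈ B) (ha1 : a ≠ 1) (hc1 : c ≠ 1) {s : G}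
    (hs : s ∈ Subgroup.centralizer ({a * c} : Set G)) (hs2 : ¬ 2 ∣ orderOf s)
    {χ : IrrCharacter G} (hχ : χ ∈ principalBlock M G) :
    (χ : G → ℂ) (a * c * s) = (χ : G → ℂ) (a * c) := by
  classical
  haveI := CfsgLib.Blocks.isPrime_of_isPModular hM
  obtain ⟨Q, N, hNn, hNQ⟩ := h.centralizer_mixed ha hc ha1 hc1
  haveI := hNn
  have hidx : ∃ k : ℕ, N.index = 2 ^ k := by
    obtain ⟨k, hk⟩ := IsPGroup.iff_card.1 Q.2
    exact ⟨k, by rw [hNQ.symm.index_eq_card, hk]⟩
  have hcop : (Nat.card N).Coprime 2 := by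
    refine (Nat.prime_two.coprime_iff_not_dvd.2 ?_).symm
    rw [← hNQ.index_eq_card]
    exact Q.not_dvd_index
  have hxP : a * c ∈ (P : Subgroup G) := mul_mem (h.le_left ha) (h.le_right hc)
  refine Cfsg.Agent.S0942.result 2 M hM (a * c) ⟨1, ?_⟩ s ?_ χ hχ
  · rw [pow_one]
    refine orderOf_eq_prime (by rw [pow_two]; exact h.sq _ hxP) fun e => ha1 ?_
    have hca : a = c := by rw [mul_eq_one_iff_eq_inv] at e; rw [e, h.inv_eq (h.le_right hc)]
    exact h.inf_eq a ha (hca ▸ hc)
  · refine Subgroup.mem_map.2 ⟨(⟨s, hs⟩ : Subgroup.centralizer ({a * c} : Set G)), ?_, rfl⟩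
    have hN : N ≤ pPrimeCore 2 (Subgroup.centralizer ({a * c} : Set G)) :=
      le_sSup ⟨inferInstance, hcop⟩
    exact hN (CfsgLib.BlockLocal.mem_of_p_regular hidx (by rwa [Subgroup.orderOf_mk]))

/-- The centralizer of an element of the first subgroup has a normal subgroup of index four with
Klein four Sylow group and one class of involutions; its singular elements shifted by the element
lie in the section of an element off both subgroups. -/
theorem PairData.centralizer_left [Fintype G] {u w : G} (hu : u ∈ A) (hw : w ∈ B) (hu1 : u ≠ 1)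
    (hw1 : w ≠ 1) {M : Ideal AlgInt} (hM : IsPModular 2 M) :
    ∃ (PC : Sylow 2 (Subgroup.centralizer ({u} : Set G)))
      (K : Subgroup (Subgroup.centralizer ({u} : Set G))) (Q : Sylow 2 K),
      (∀ g ∈ (PC : Subgroup (Subgroup.centralizer ({u} : Set G))),
        ∀ g' ∈ (PC : Subgroup (Subgroup.centralizer ({u} : Set G))), g * g' = g' * g) ∧
      K.Normal ∧ K.index = 4 ∧ IsKleinFour (Q : Subgroup K) ∧
      (∀ s t : K, orderOf s = 2 → orderOf t = 2 → IsConj s t) ∧
      (∀ χ ∈ principalBlock M G, ∀ k : K, 2 ∣ orderOf k →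
        (χ : G → ℂ) (u * ((k : Subgroup.centralizer ({u} : Set G)) : G)) =
          (χ : G → ℂ) (u * w)) := by
  classical
  set C := Subgroup.centralizer ({u} : Set G) with hC
  have hle : (P : Subgroup G) ≤ C := h.le_centralizer (h.le_left hu)
  set PC : Sylow 2 C := P.subtype hle with hPC
  have hmem : ∀ g : C, g ∈ (PC : Subgroup C) ↔ (g : G) ∈ (P : Subgroup G) := fun g => Iff.rfl
  have hcommC : ∀ g ∈ (PC : Subgroup C), ∀ g' ∈ (PC : Subgroup C), g * g' = g' * g :=
    fun g hg g' hg' => Subtype.ext (h.comm _ ((hmem g).1 hg) _ ((hmem g').1 hg'))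
  have hN : ∀ n : C, n ∈ Subgroup.normalizer ((PC : Subgroup C) : Set C) ↔
      (n : G) ∈ Subgroup.normalizer ((P : Subgroup G) : Set G) := by
    intro n
    exact ⟨fun hn => Subgroup.mem_normalizer_fintype fun v hv =>
        (Subgroup.mem_normalizer_iff.1 hn ⟨v, hle hv⟩).1 hv,
      fun hn => Subgroup.mem_normalizer_fintype fun g hg =>
        (Subgroup.mem_normalizer_iff.1 hn (g : G)).1 hg⟩
  have hnu : ∀ n : C, (n : G) * u * (n : G)⁻¹ = u := fun n => by
    rw [mul_inv_eq_iff_eq_mul]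
    exact Subgroup.mem_centralizer_singleton_iff.1 n.2
  set K := pResidual 2 C with hK
  haveI hKn : K.Normal := CfsgLib.Transfer.pResidual_normal
  -- conjugation inside the residual realises the action of the normalizer
  have hmoveK : ∀ c ∈ B, c ≠ 1 → ∀ c' ∈ B, c' ≠ 1 →
      ∃ k ∈ K, ((k : C) : G) * c * ((k : C) : G)⁻¹ = c' := by
    intro c hc hc1 c' hc' hc1'
    obtain ⟨n, hn, e1, e2⟩ := h.trans u hu hu1 u hu hu1 c hc hc1 c' hc' hc1'
    have hnC : n ∈ C := Subgroup.mem_centralizer_singleton_iff.2 (mul_inv_eq_iff_eq_mul.1 e1)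
    obtain ⟨v, hv, k, hk, hvk⟩ := CfsgLib.Transfer.exists_mul_eq PC ⟨n, hnC⟩
    refine ⟨k, hk, ?_⟩
    have e : ((k : C) : G) = (v : G)⁻¹ * n := by
      rw [eq_inv_mul_iff_mul_eq]
      exact congrArg Subtype.val hvk
    rw [e, show ((v : C) : G)⁻¹ * n * c * (((v : C) : G)⁻¹ * n)⁻¹ =
      ((v : C) : G)⁻¹ * (n * c * n⁻¹) * ((v : C) : G) by group, e2, mul_assoc,
      h.comm c' (h.le_right hc') _ ((hmem v).1 hv), inv_mul_cancel_left]
  -- the intersection with the Sylow subgroup
  have hPK : ∀ g : C, g ∈ (PC : Subgroup C) ⊓ K ↔ (g : G) ∈ B := by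
    intro g
    rw [hK, CfsgLib.Transfer.abelian_inf_pResidual PC ⟨⟨fun a b => Subtype.ext (hcommC _ a.2 _ b.2)⟩⟩]
    constructor
    · intro hg
      have : ⁅(PC : Subgroup C), Subgroup.normalizer ((PC : Subgroup C) : Set C)⁆ ≤ B.subgroupOf C := by
        refine Subgroup.commutator_le.2 fun v hv n hn => ?_
        rw [Subgroup.mem_subgroupOf, commutatorElement_def]
        push_cast
        obtain ⟨a, ha, c, hc, e⟩ := h.dec _ ((hmem v).1 hv)
        have hn' := (hN n).1 hn
        have h1 := h.fix_left _ hn' u hu hu1 (hnu n) a ha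
        have h2 := h.stable_right _ hn' c hc
        have e' : (v : G) * n * (v : G)⁻¹ * (n : G)⁻¹ = c * ((n : G) * c * (n : G)⁻¹)⁻¹ := by
          rw [← e]
          calc a * c * (n : G) * (a * c)⁻¹ * (n : G)⁻¹
              = a * (c * ((n : G) * c * (n : G)⁻¹)⁻¹) * ((n : G) * a * (n : G)⁻¹)⁻¹ := by group
            _ = a * (c * ((n : G) * c * (n : G)⁻¹)⁻¹) * a⁻¹ := by rw [h1]
            _ = _ := by
              rw [h.comm a (h.le_left ha) _ (h.le_right (mul_mem hc (inv_mem h2)))]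
              group
        rw [e']
        exact mul_mem hc (inv_mem h2)
      exact Subgroup.mem_subgroupOf.1 (this hg)
    · intro hg
      rcases eq_or_ne (g : G) 1 with hg1 | hg1
      · rw [show g = 1 from Subtype.ext hg1]
        exact one_mem _
      obtain ⟨c, hc, hc1, hcg⟩ := h.exists_other (c := (g : G))
      have hdc : (g : G) * c ≠ 1 := fun e => hcg (by
        rw [mul_eq_one_iff_eq_inv, h.inv_eq (h.le_right hc)] at e; exact e.symm)
      obtain ⟨n, hn, e1, e2⟩ := h.trans u hu hu1 u hu hu1 c hc hc1 _ (mul_mem hg hc) hdc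
      have hnC : n ∈ C := Subgroup.mem_centralizer_singleton_iff.2 (mul_inv_eq_iff_eq_mul.1 e1)
      have key : ⁅(⟨c, hle (h.le_right hc)⟩ : C), (⟨n, hnC⟩ : C)⁆ = g := by
        apply Subtype.ext
        rw [commutatorElement_def]
        push_cast
        calc c * n * c⁻¹ * n⁻¹ = c * (n * c * n⁻¹)⁻¹ := by group
          _ = c * (g : G) * c := by
            rw [e2, h.inv_eq (mul_mem (h.le_right hg) (h.le_right hc)), ← mul_assoc]
          _ = (g : G) * (c * c) := by rw [h.comm c (h.le_right hc) _ (h.le_right hg), mul_assoc]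
          _ = g := by rw [h.sq c (h.le_right hc), mul_one]
      rw [← key]
      exact Subgroup.commutator_mem_commutator (h.le_right hc) ((hN _).2 hn)
  have hBK : ∀ g : C, (g : G) ∈ B → g ∈ K := fun g hg => ((hPK g).2 hg).2
  -- the index
  have hcardPC : Nat.card (PC : Subgroup C) = 16 := by
    rw [← h.card_P]
    exact Nat.card_congr (Subgroup.subgroupOfEquivOfLe hle).toEquiv
  have hcardI : Nat.card ↥((PC : Subgroup C) ⊓ K) = 4 := by
    rw [← h.card_right]
    refine Nat.card_congr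
      { toFun := fun g => ⟨(g : C), (hPK g).1 g.2⟩
        invFun := fun b => ⟨⟨b, hle (h.le_right b.2)⟩, (hPK _).2 b.2⟩
        left_inv := fun g => rfl
        right_inv := fun b => rfl }
  have hidx : K.index = 4 := by
    have hsup : (PC : Subgroup C) ⊔ K = ⊤ := by
      refine eq_top_iff.2 fun g _ => ?_
      obtain ⟨v, hv, k, hk, rfl⟩ := CfsgLib.Transfer.exists_mul_eq PC g
      exact Subgroup.mul_mem_sup hv hk
    have h1 : K.index = K.relIndex (PC : Subgroup C) := by
      rw [← Subgroup.relIndex_top_right, ← hsup, sup_comm, Subgroup.relIndex_sup_left]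
    have h2 := Subgroup.card_mul_index ((K ⊓ (PC : Subgroup C)).subgroupOf (PC : Subgroup C))
    rw [Nat.card_congr (Subgroup.subgroupOfEquivOfLe inf_le_right).toEquiv, inf_comm, hcardI,
      ← Subgroup.relIndex, Subgroup.inf_relIndex_left, hcardPC, ← h1] at h2
    omega
  -- the Sylow subgroup of the residual
  set Q0 : Subgroup K := (PC : Subgroup C).subgroupOf K with hQ0
  have hQ0c : Nat.card Q0 = 4 := by
    rw [← hcardI, hQ0, ← Subgroup.inf_subgroupOf_right,
      Nat.card_congr (Subgroup.subgroupOfEquivOfLe inf_le_right).toEquiv]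
  have hKfac : (Nat.card K).factorization 2 = 2 := by
    have h1 : (Nat.card C).factorization 2 = 4 := by
      have h2 := PC.card_eq_multiplicity
      rw [hcardPC] at h2
      exact (Nat.pow_right_injective (le_refl 2) (h2.symm.trans (by norm_num : (16 : ℕ) = 2 ^ 4)))
    rw [← Subgroup.card_mul_index K, hidx, Nat.factorization_mul Nat.card_pos.ne' (by norm_num),
      Finsupp.add_apply, show (4 : ℕ) = 2 ^ 2 from rfl,
      Nat.Prime.factorization_pow Nat.prime_two, Finsupp.single_eq_same] at h1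
    omega
  set Q : Sylow 2 K := Sylow.ofCard Q0 (by rw [hQ0c, hKfac]; rfl) with hQ
  have hQmem : ∀ k : K, k ∈ (Q : Subgroup K) ↔ ((k : C) : G) ∈ B := fun k =>
    ⟨fun hk => (hPK _).1 ⟨hk, k.2⟩, fun hk => ((hPK _).2 hk).1⟩
  have hklein : IsKleinFour (Q : Subgroup K) := by
    refine ⟨hQ0c, ?_⟩
    refine Nat.dvd_antisymm (Monoid.exponent_dvd_of_forall_pow_eq_one fun x => Subtype.ext
      (Subtype.ext (Subtype.ext ?_))) ?_
    · push_cast
      rw [pow_two]
      exact h.sq _ (h.le_right ((hQmem _).1 x.2))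
    · haveI : Nontrivial (Q : Subgroup K) := Finite.one_lt_card_iff_nontrivial.1 (by
        rw [show Nat.card (Q : Subgroup K) = 4 from hQ0c]; norm_num)
      obtain ⟨x, hx⟩ := exists_ne (1 : (Q : Subgroup K))
      have hx2 : orderOf x = 2 := orderOf_eq_prime (Subtype.ext (Subtype.ext (Subtype.ext (by
        push_cast
        rw [pow_two]
        exact h.sq _ (h.le_right ((hQmem _).1 x.2)))))) hx
      have h2 := Monoid.order_dvd_exponent x
      rwa [hx2] at h2
  have hone : ∀ s t : K, orderOf s = 2 → orderOf t = 2 → IsConj s t := by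
    have hto : ∀ s : K, orderOf s = 2 → ∃ q : K, q ∈ (Q : Subgroup K) ∧ q ≠ 1 ∧ IsConj s q := by
      intro s hs
      obtain ⟨R, hR⟩ := (IsPGroup.of_card (p := 2) (n := 1)
        (by rw [Nat.card_zpowers, hs, pow_one]) : IsPGroup 2 (Subgroup.zpowers s)).exists_le_sylow
      obtain ⟨g, hg⟩ := MulAction.exists_smul_eq K R Q
      refine ⟨g * s * g⁻¹, ?_, fun e => ?_, isConj_iff.2 ⟨g, rfl⟩⟩
      · rw [← hg, Sylow.coe_subgroup_smul, Subgroup.mem_pointwise_smul_iff_inv_smul_mem]
        simpa [MulAut.smul_def, mul_assoc] using hR (Subgroup.mem_zpowers s)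
      · rw [conj_eq_one_iff] at e
        simp [e] at hs
    intro s t hs ht
    obtain ⟨q, hq, hq1, hsq⟩ := hto s hs
    obtain ⟨r, hr, hr1, htr⟩ := hto t ht
    refine hsq.trans (IsConj.trans ?_ htr.symm)
    obtain ⟨k, hk, hkqr⟩ := hmoveK _ ((hQmem q).1 hq) (fun e => hq1 (Subtype.ext (Subtype.ext e)))
      _ ((hQmem r).1 hr) (fun e => hr1 (Subtype.ext (Subtype.ext e)))
    exact isConj_iff.2 ⟨⟨k, hk⟩, Subtype.ext (Subtype.ext hkqr)⟩
  refine ⟨PC, K, Q, hcommC, hKn, hidx, hklein, hone, fun χ hχ k hk => ?_⟩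
  haveI : Fintype C := Fintype.ofFinite C
  haveI : Fintype K := Fintype.ofFinite K
  let wK : K := ⟨⟨w, hle (h.le_right hw)⟩, hBK _ hw⟩
  have hw2 : orderOf wK = 2 := by
    rw [← Subgroup.orderOf_coe, ← Subgroup.orderOf_coe]
    exact orderOf_eq_prime (by rw [pow_two]; exact h.sq w (h.le_right hw)) hw1
  obtain ⟨g, s, hs, hgk⟩ := CfsgLib.BlockLocal.exists_conj_section Q hklein wK hw2 hone hk
  have hval := congrArg (fun z : K => ((z : C) : G)) hgk
  push_cast at hval
  rw [← CfsgLib.CharTheory.IsIrrCharacter.isClassFunction χ.2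
    (u * ((k : C) : G)) (((g : K) : C) : G)]
  have hgu : (((g : K) : C) : G) * u = u * (((g : K) : C) : G) :=
    Subgroup.mem_centralizer_singleton_iff.1 ((g : K) : C).2
  have hsu : ((((s : K)) : C) : G) * u = u * ((((s : K)) : C) : G) :=
    Subgroup.mem_centralizer_singleton_iff.1 (((s : K)) : C).2
  have hsw : ((((s : K)) : C) : G) * w = w * ((((s : K)) : C) : G) :=
    congrArg (fun z : K => ((z : C) : G)) (Subgroup.mem_centralizer_singleton_iff.1 s.2)
  have e : (((g : K) : C) : G) * (u * ((k : C) : G)) * (((g : K) : C) : G)⁻¹ =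
      u * w * ((((s : K)) : C) : G) := by
    calc (((g : K) : C) : G) * (u * ((k : C) : G)) * (((g : K) : C) : G)⁻¹
        = ((((g : K) : C) : G) * u) * ((k : C) : G) * (((g : K) : C) : G)⁻¹ := by group
      _ = u * ((((g : K) : C) : G) * ((k : C) : G) * (((g : K) : C) : G)⁻¹) := by rw [hgu]; group
      _ = _ := by rw [hval, mul_assoc]
  rw [e]
  refine h.apply_mixed_mul hM hu hw hu1 hw1 ?_ ?_ hχ
  · rw [Subgroup.mem_centralizer_singleton_iff, ← mul_assoc, hsu, mul_assoc, hsw, mul_assoc]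
  · simpa only [Subgroup.orderOf_coe] using hs

end CfsgLib.SixteenNine
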