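import Cfsg.Agent.Lib.SixteenNine.Local
import Cfsg.Agent.Lib.BlockLocal.PrincipalColumns
import Cfsg.Agent.Lib.BrauerCharacters.Contribution

/-!
# The integral coordinates of the principal block at a section
-/

set_option autoImplicit false
set_option linter.style.haveILetI false
set_option linter.unusedSectionVars false

open Finset Cfsg CfsgLib.CharTheory CfsgLib.BlockLocal CfsgLib.BrauerCharacters
open scoped ComplexConjugate

namespace CfsgLib.SixteenNine

universe u

variable {G : Type u} [Group G] [Fintype G]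

/-- The coefficients of a shifted restriction at an involution are integers. -/
theorem exists_int_shift {u : G} (hu : orderOf u = 2)
    [Fintype (Subgroup.centralizer ({u} : Set G))] (χ : IrrCharacter G)
    (ξ : IrrCharacter (Subgroup.centralizer ({u} : Set G))) :
    ∃ e : ℤ, classInner (fun c : Subgroup.centralizer ({u} : Set G) => (χ : G → ℂ) (u * c))
      (ξ : Subgroup.centralizer ({u} : Set G) → ℂ) = (e : ℂ) := by
  obtain ⟨hpow, hmul⟩ := centralVal_spec ξ (commute_cenElem u)
  have ho : orderOf (cenElem u) = 2 := by rw [← Subgroup.orderOf_coe]; exact hu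
  rw [ho] at hpow
  have key : classInner (fun c : Subgroup.centralizer ({u} : Set G) => (χ : G → ℂ) (u * c))
      (ξ : Subgroup.centralizer ({u} : Set G) → ℂ) =
      centralVal (ξ : Subgroup.centralizer ({u} : Set G) → ℂ) (cenElem u) * (resMult u χ ξ : ℂ) := by
    rw [coe_resMult]
    simp only [classInner, mul_sum]
    refine Fintype.sum_equiv (Equiv.mulLeft (cenElem u)) _ _ fun c => ?_
    simp only [Equiv.coe_mulLeft, hmul, map_mul, Subgroup.coe_mul]
    rw [show ((cenElem u : Subgroup.centralizer ({u} : Set G)) : G) = u from rfl]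
    rcases sq_eq_one_iff.1 hpow with e | e <;> simp [e]
  rcases sq_eq_one_iff.1 hpow with e | e
  · exact ⟨resMult u χ ξ, by rw [key, e, one_mul]⟩
  · exact ⟨- resMult u χ ξ, by rw [key, e]; push_cast; ring⟩

/-- The data of the columns at the section of an involution. -/
theorem column_data (M : Ideal AlgInt) (hM : IsPModular 2 M) {u x : G} (hu : orderOf u = 2)
    [Fintype (Subgroup.centralizer ({u} : Set G))]
    (P : Sylow 2 (Subgroup.centralizer ({u} : Set G)))
    (hab : ∀ g ∈ (P : Subgroup (Subgroup.centralizer ({u} : Set G))),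
      ∀ h ∈ (P : Subgroup (Subgroup.centralizer ({u} : Set G))), g * h = h * g)
    (K : Subgroup (Subgroup.centralizer ({u} : Set G))) [K.Normal] [Fintype K] (hidx : K.index = 4)
    (Q : Sylow 2 K) (hQ : IsKleinFour (Q : Subgroup K))
    (hone : ∀ s t : K, orderOf s = 2 → orderOf t = 2 → IsConj s t)
    (hsec : ∀ χ ∈ principalBlock M G, ∀ k : K, 2 ∣ orderOf k →
      (χ : G → ℂ) (u * ((k : Subgroup.centralizer ({u} : Set G)) : G)) = (χ : G → ℂ) x)
    (b : IrrCharacter G → ℤ) (hb : ∀ χ : IrrCharacter G, (χ : G → ℂ) x = (b χ : ℂ)) :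
    ∃ (S : Type u) (φ : Fin 4 → S → ℂ) (g : S → G) (y : IrrCharacter G → Fin 4 → ℤ),
      OneRelation φ ∧
      (∀ χ ∈ principalBlock M G, ∑ a, y χ a = b χ) ∧
      (∀ χ ∈ principalBlock M G, ∀ s, (χ : G → ℂ) (g s) = ∑ a, (y χ a : ℂ) * φ a s) ∧
      (∀ s, IsPPart 2 (g s) u) ∧
      (∀ s s', ∑ χ ∈ blockFinset (principalBlock M G),
        (χ : G → ℂ) (g s) * conj ((χ : G → ℂ) (g s')) = 4 * ∑ a, φ a s * conj (φ a s')) ∧
      blockRank 2 (principalBlock M (Subgroup.centralizer ({u} : Set G))) = 3 := by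
  classical
  haveI := CfsgLib.Blocks.isPrime_of_isPModular hM
  haveI := Fintype.ofFinite (IrrCharacter G)
  haveI := Fintype.ofFinite (IrrCharacter (Subgroup.centralizer ({u} : Set G)))
  obtain ⟨θ, δ, hinj, hδ, hsing, hone', hres, hcount, hout, hrank⟩ :=
    cover_data M hM P hab K hidx Q hQ hone
  set B := blockFinset (principalBlock M (Subgroup.centralizer ({u} : Set G))) with hB
  have hu' : ∃ k : ℕ, orderOf u = 2 ^ k := ⟨1, by rw [hu, pow_one]⟩
  choose e he using fun χ : IrrCharacter G => fun ξ => exists_int_shift hu χ ξ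
  choose! r hr using hres
  -- the coefficients
  set A : IrrCharacter G → Fin 4 → ℤ := fun χ a => ∑ ξ ∈ B.filter (fun ξ => r ξ = a), e χ ξ with hA
  set y : IrrCharacter G → Fin 4 → ℤ := fun χ a => δ a * A χ a with hy
  have hδ2 : ∀ a, (δ a : ℂ) * (δ a : ℂ) = 1 := fun a => by rcases hδ a with h | h <;> simp [h]
  have hfib : ∀ F : Fin 4 → IrrCharacter (Subgroup.centralizer ({u} : Set G)) → ℂ,
      ∑ ξ ∈ B, F (r ξ) ξ = ∑ a, ∑ ξ ∈ B.filter (fun ξ => r ξ = a), F a ξ := fun F => by
    rw [← sum_fiberwise B r]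
    exact sum_congr rfl fun a _ => sum_congr rfl fun ξ hξ => by rw [(mem_filter.1 hξ).2]
  have hreg : ∀ χ ∈ principalBlock M G, ∀ k : K, ¬ 2 ∣ orderOf k →
      (χ : G → ℂ) (u * ((k : Subgroup.centralizer ({u} : Set G)) : G)) =
        ∑ a, (A χ a : ℂ) * (θ a : K → ℂ) k := by
    intro χ hχ k hk
    rw [apply_mul_eq_sectionPart hM hu' hχ (by rwa [Subgroup.orderOf_coe]), sectionPart,
      ← sum_filter]
    rw [show (univ.filter fun ξ : IrrCharacter (Subgroup.centralizer ({u} : Set G)) =>
      ξ ∈ principalBlock M (Subgroup.centralizer ({u} : Set G))) = B by ext; simp [hB]]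
    rw [sum_congr rfl fun ξ hξ => show _ = (e χ ξ : ℂ) * (θ (r ξ) : K → ℂ) k by
      rw [he χ ξ, hr ξ (mem_blockFinset.1 hξ) k], hfib fun a ξ => (e χ ξ : ℂ) * (θ a : K → ℂ) k]
    exact sum_congr rfl fun a _ => by rw [hA, Int.cast_sum, sum_mul]
  -- the row sums
  have hsum : ∀ χ ∈ principalBlock M G, ∑ a, y χ a = b χ := by
    intro χ hχ
    set f : K → ℂ := fun k => (χ : G → ℂ) (u * ((k : Subgroup.centralizer ({u} : Set G)) : G)) with hf
    have hexp : ∀ k : K, f k = ∑ ξ, (e χ ξ : ℂ) *
        (ξ : Subgroup.centralizer ({u} : Set G) → ℂ) k := fun k => by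
      have h := congrFun (eq_sum_classInner (f := fun c : Subgroup.centralizer ({u} : Set G) =>
        (χ : G → ℂ) (u * c)) (isClassFunction_section (IsIrrCharacter.isClassFunction χ.2)))
        (k : Subgroup.centralizer ({u} : Set G))
      simp only [Finset.sum_apply, Pi.smul_apply, smul_eq_mul, he] at h
      exact h
    have hinner : ∀ a, classInner f (θ a : K → ℂ) = (A χ a : ℂ) := by
      intro a
      rw [funext hexp]
      have h1 : classInner (fun k : K => ∑ ξ, (e χ ξ : ℂ) *
          (ξ : Subgroup.centralizer ({u} : Set G) → ℂ) k) (θ a : K → ℂ) = ∑ ξ, (e χ ξ : ℂ) *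
          classInner (fun k : K => (ξ : Subgroup.centralizer ({u} : Set G) → ℂ) k) (θ a : K → ℂ) := by
        simp only [classInner, sum_mul, mul_sum]
        rw [sum_comm]
        exact sum_congr rfl fun ξ _ => sum_congr rfl fun k _ => by ring
      rw [h1, ← sum_subset (subset_univ (B.filter fun ξ => r ξ = a)), hA, Int.cast_sum]
      · refine sum_congr rfl fun ξ hξ => ?_
        obtain ⟨h2, h3⟩ := mem_filter.1 hξ
        rw [funext fun k => hr ξ (mem_blockFinset.1 h2) k, h3,
          classInner_self_of_isIrr (θ a).2, mul_one]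
      · intro ξ _ hξ
        by_cases h2 : ξ ∈ principalBlock M (Subgroup.centralizer ({u} : Set G))
        · rw [funext fun k => hr ξ h2 k, classInner_eq_zero_of_ne (θ (r ξ)).2 (θ a).2
            (fun h => hξ (mem_filter.2 ⟨mem_blockFinset.2 h2, hinj (Subtype.ext h)⟩)), mul_zero]
        · rw [hout ξ h2 a, mul_zero]
    -- compare the singular values
    set s : ℂ := (b χ : ℂ) - ∑ a, (y χ a : ℂ) with hs
    have hrv : ∀ k : K, f k - ∑ a, (A χ a : ℂ) * (θ a : K → ℂ) k =
        if 2 ∣ orderOf k then s else 0 := by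
      intro k
      split_ifs with hk
      · simp only [hs, hf]
        rw [hsec χ hχ k hk, hb χ]
        congr 1
        exact sum_congr rfl fun a _ => by rw [hsing a k hk, hy]; push_cast; ring
      · simp only [hf]
        rw [hreg χ hχ k hk, sub_self]
    have horth : ∑ k : K, (if 2 ∣ orderOf k then s else 0) * conj ((θ 0 : K → ℂ) k) = 0 := by
      have h1 : classInner (fun k => f k - ∑ a, (A χ a : ℂ) * (θ a : K → ℂ) k) (θ 0 : K → ℂ) = 0 := by
        have e1 : classInner (fun k => f k - ∑ a, (A χ a : ℂ) * (θ a : K → ℂ) k) (θ 0 : K → ℂ) =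
            classInner f (θ 0 : K → ℂ) -
              ∑ a, (A χ a : ℂ) * classInner (θ a : K → ℂ) (θ 0 : K → ℂ) := by
          simp only [classInner, sub_mul, sum_sub_distrib, mul_sub, sum_mul, mul_sum]
          congr 1
          rw [sum_comm]
          exact sum_congr rfl fun ξ _ => sum_congr rfl fun k _ => by ring
        rw [e1, hinner, sum_eq_single 0 (fun a _ ha => by
          rw [classInner_eq_zero_of_ne (θ a).2 (θ 0).2 (fun h => ha (hinj (Subtype.ext h))),
            mul_zero]) (fun h => absurd (mem_univ _) h), classInner_self_of_isIrr (θ 0).2,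
          mul_one, sub_self]
      rw [funext hrv, classInner, mul_eq_zero] at h1
      exact h1.resolve_left (inv_ne_zero (Nat.cast_ne_zero.2 Nat.card_pos.ne'))
    rw [sum_congr rfl fun k _ => show _ = (if 2 ∣ orderOf k then s * (δ 0 : ℂ) else 0) by
      split_ifs with hk
      · rw [hsing 0 k hk, map_intCast]
      · rw [zero_mul], ← sum_filter, sum_const, nsmul_eq_mul] at horth
    obtain ⟨w, -, hw⟩ := exists_involution_mem Q hQ
    have hpos : ((univ.filter fun k : K => 2 ∣ orderOf k).card : ℂ) ≠ 0 :=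
      Nat.cast_ne_zero.2 (card_ne_zero.2 ⟨w, mem_filter.2 ⟨mem_univ _, dvd_of_eq hw.symm⟩⟩)
    have hd0 : (δ 0 : ℂ) ≠ 0 := fun h => by simpa [h] using hδ2 0
    have hs0 : s = 0 := by
      rcases mul_eq_zero.1 horth with h | h
      · exact absurd h hpos
      · exact (mul_eq_zero.1 h).resolve_right hd0
    rw [hs, sub_eq_zero, ← Int.cast_sum] at hs0
    exact_mod_cast hs0.symm
  refine ⟨{k : K // ¬ 2 ∣ orderOf k}, signedReg θ δ,
    fun k => u * ((k.1 : Subgroup.centralizer ({u} : Set G)) : G), y, hone', hsum, ?_, ?_, ?_, hrank⟩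
  · intro χ hχ k
    rw [hreg χ hχ k.1 k.2]
    refine sum_congr rfl fun a _ => ?_
    rw [hy, signedReg]
    push_cast
    linear_combination (-((A χ a : ℂ) * (θ a : K → ℂ) k.1)) * hδ2 a
  · intro k
    refine ⟨_, rfl, ?_, hu', by rw [Subgroup.orderOf_coe, Subgroup.orderOf_coe]; exact k.2⟩
    exact (Subgroup.mem_centralizer_singleton_iff.1
      (k.1 : Subgroup.centralizer ({u} : Set G)).2).symm
  · intro s s'
    have hsec2 := sum_principalBlock_section (z := u) hM hu'
      (y := (s.1 : Subgroup.centralizer ({u} : Set G))) (y' := (s'.1 : Subgroup.centralizer ({u} : Set G)))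
      (by rw [Subgroup.orderOf_coe]; exact s.2) (by rw [Subgroup.orderOf_coe]; exact s'.2)
    rw [← sum_filter, ← sum_filter, show (univ.filter fun χ : IrrCharacter G =>
        χ ∈ principalBlock M G) = blockFinset (principalBlock M G) by ext; simp,
      show (univ.filter fun ξ : IrrCharacter (Subgroup.centralizer ({u} : Set G)) =>
        ξ ∈ principalBlock M (Subgroup.centralizer ({u} : Set G))) = B by ext; simp [hB]] at hsec2
    beta_reduce
    have einv : ∀ (χ : IrrCharacter G) (g : G), (χ : G → ℂ) g⁻¹ = conj ((χ : G → ℂ) g) :=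
      fun χ g => IsIrrCharacter.inv χ.2 g
    simp only [einv] at hsec2
    rw [hsec2]
    rw [sum_congr rfl fun ξ hξ => show _ = (θ (r ξ) : K → ℂ) s.1 * conj ((θ (r ξ) : K → ℂ) s'.1) by
      rw [IsIrrCharacter.inv ξ.2, hr ξ (mem_blockFinset.1 hξ) s.1, hr ξ (mem_blockFinset.1 hξ) s'.1],
      hfib fun a _ => (θ a : K → ℂ) s.1 * conj ((θ a : K → ℂ) s'.1), mul_sum]
    refine sum_congr rfl fun a _ => ?_
    have hc : (B.filter fun ξ => r ξ = a).card = 4 := by
      refine (Nat.subtype_card _ fun ξ => ?_).symm.trans (hcount a)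
      rw [mem_filter, mem_blockFinset]
      refine ⟨fun h => ⟨h.1, fun k => by rw [hr ξ h.1 k, h.2]⟩, fun h => ⟨h.1, ?_⟩⟩
      exact hinj (Subtype.ext (funext fun k => (hr ξ h.1 k).symm.trans (h.2 k)))
    rw [sum_const, hc, nsmul_eq_mul, signedReg, signedReg, map_mul, map_intCast]
    push_cast
    linear_combination (-(4 * ((θ a : K → ℂ) s.1 * conj ((θ a : K → ℂ) s'.1)))) * hδ2 a

end CfsgLib.SixteenNine
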