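import Cfsg.Agent.Lib.SixteenNine.Groups
import Cfsg.Agent.Lib.SixteenNine.Section
import Cfsg.Agent.Lib.SixteenNine.Combinatorics
import Cfsg.Agent.Lib.SmallBlocks.Classes
import Cfsg.Agent.Lib.BlockStar.Nonvanishing
import Cfsg.Agent.S0925
import Cfsg.Agent.S0947
import Cfsg.Agent.S4646
import Cfsg.Agent.S4691
import Mathlib.GroupTheory.Sylow

/-!
# The principal 2-block for an elementary abelian Sylow group of order sixteen, inertial index nine
-/

set_option autoImplicit false
set_option linter.style.haveILetI false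
set_option linter.unusedSectionVars false

open Finset Cfsg CfsgLib.CharTheory CfsgLib.BlockLocal CfsgLib.BrauerCharacters
open scoped ComplexConjugate

namespace CfsgLib.SixteenNine

universe u

variable {G : Type u} [Group G] [Fintype G] {P : Sylow 2 G} {A B : Subgroup G}
  (h : PairData P A B) {M : Ideal AlgInt} (hM : IsPModular 2 M)

include h

theorem PairData.exists_gens : ∃ u ∈ A, ∃ w ∈ B, u ≠ 1 ∧ w ≠ 1 := by
  obtain ⟨u, hu, hu1, -⟩ := h.symm.exists_other (c := 1)
  obtain ⟨w, hw, hw1, -⟩ := h.exists_other (c := 1)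
  exact ⟨u, hu, w, hw, hu1, hw1⟩

theorem PairData.orderOf_eq_two {v : G} (hv : v ∈ (P : Subgroup G)) (hv1 : v ≠ 1) : orderOf v = 2 :=
  orderOf_eq_prime (by rw [pow_two]; exact h.sq v hv) hv1

theorem PairData.mul_ne_one {u w : G} (hu : u ∈ A) (hw : w ∈ B) (hu1 : u ≠ 1) : u * w ≠ 1 := by
  intro e
  rw [mul_eq_one_iff_eq_inv, h.inv_eq (h.le_right hw)] at e
  exact hu1 (h.inf_eq u hu (e ▸ hw))

/-- Conjugate elements of the Sylow subgroup are conjugate in its normalizer. -/
theorem PairData.exists_normalizer {a a' : G} (ha : a ∈ (P : Subgroup G))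
    (ha' : a' ∈ (P : Subgroup G)) (hc : IsConj a a') :
    ∃ n ∈ Subgroup.normalizer ((P : Subgroup G) : Set G), n * a * n⁻¹ = a' := by
  obtain ⟨g, hg⟩ := isConj_iff.1 hc
  have hcen : ∀ v ∈ (P : Subgroup G), v ∈ Subgroup.centralizer ((P : Subgroup G) : Set G) :=
    fun v hv => Subgroup.mem_centralizer_iff.2 fun x hx => h.comm x hx v hv
  obtain ⟨n, hn, e⟩ := P.conj_eq_normalizer_conj_of_mem_centralizer a g⁻¹ (hcen a ha)
    (by rw [inv_inv, hg]; exact hcen a' ha')
  refine ⟨n⁻¹, inv_mem hn, ?_⟩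
  rw [inv_inv, ← e, inv_inv, hg]

/-- The three classes are different. -/
theorem PairData.not_isConj {u w : G} (hu : u ∈ A) (hw : w ∈ B) (hu1 : u ≠ 1) (hw1 : w ≠ 1) :
    ¬ IsConj u w ∧ ¬ IsConj u (u * w) ∧ ¬ IsConj w (u * w) := by
  have hx : u * w ∈ (P : Subgroup G) := mul_mem (h.le_left hu) (h.le_right hw)
  refine ⟨fun e => ?_, fun e => ?_, fun e => ?_⟩
  · obtain ⟨n, hn, e'⟩ := h.exists_normalizer (h.le_left hu) (h.le_right hw) e
    exact hw1 (h.inf_eq w (e' ▸ h.stable_left n hn u hu) hw)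
  · obtain ⟨n, hn, e'⟩ := h.exists_normalizer (h.le_left hu) hx e
    have h1 := h.stable_left n hn u hu
    rw [e'] at h1
    exact hw1 (h.inf_eq w (by simpa using mul_mem (inv_mem hu) h1) hw)
  · obtain ⟨n, hn, e'⟩ := h.exists_normalizer (h.le_right hw) hx e
    have h1 := h.stable_right n hn w hw
    rw [e'] at h1
    exact hu1 (h.inf_eq u hu (by simpa using mul_mem h1 (inv_mem hw)))

/-- Every non-trivial element of the Sylow subgroup is conjugate to one of the three. -/
theorem PairData.exists_rep {u w v : G} (hu : u ∈ A) (hw : w ∈ B) (hu1 : u ≠ 1) (hw1 : w ≠ 1)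
    (hv : v ∈ (P : Subgroup G)) (hv1 : v ≠ 1) :
    IsConj v u ∨ IsConj v w ∨ IsConj v (u * w) := by
  obtain ⟨a, ha, c, hc, rfl⟩ := h.dec v hv
  rcases eq_or_ne a 1 with rfl | ha1
  · rw [one_mul] at hv1 ⊢
    obtain ⟨n, -, -, e⟩ := h.trans u hu hu1 u hu hu1 c hc hv1 w hw hw1
    exact Or.inr (Or.inl (isConj_iff.2 ⟨n, e⟩))
  rcases eq_or_ne c 1 with rfl | hc1
  · rw [mul_one] at hv1 ⊢
    obtain ⟨n, -, e, -⟩ := h.trans a ha hv1 u hu hu1 w hw hw1 w hw hw1
    exact Or.inl (isConj_iff.2 ⟨n, e⟩)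
  obtain ⟨n, -, e1, e2⟩ := h.trans a ha ha1 u hu hu1 c hc hc1 w hw hw1
  refine Or.inr (Or.inr (isConj_iff.2 ⟨n, ?_⟩))
  rw [← e1, ← e2]
  group

theorem PairData.factorization_centralizer {v : G} (hv : v ∈ (P : Subgroup G)) :
    (Nat.card (Subgroup.centralizer ({v} : Set G))).factorization 2 =
      (Nat.card G).factorization 2 := by
  refine le_antisymm CfsgLib.SmallBlocks.factorization_le_of_le ?_
  refine (Nat.Prime.pow_dvd_iff_le_factorization Nat.prime_two Nat.card_pos.ne').1 ?_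
  rw [← P.card_eq_multiplicity]
  exact Subgroup.card_dvd_of_le (h.le_centralizer hv)

theorem PairData.factorization_eq_four : (Nat.card G).factorization 2 = 4 := by
  have h1 := P.card_eq_multiplicity
  rw [h.card_P] at h1
  exact Nat.pow_right_injective (le_refl 2) (h1.symm.trans (by norm_num : (16 : ℕ) = 2 ^ 4))

include hM

/-- The principal block does not vanish at an element off both subgroups. -/
theorem PairData.apply_mixed_ne_zero {u w : G} (hu : u ∈ A) (hw : w ∈ B) (hu1 : u ≠ 1) (hw1 : w ≠ 1)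
    {χ : IrrCharacter G} (hχ : χ ∈ principalBlock M G) : (χ : G → ℂ) (u * w) ≠ 0 := by
  classical
  haveI := CfsgLib.Blocks.isPrime_of_isPModular hM
  intro h0
  set x := u * w with hx
  have hxP : x ∈ (P : Subgroup G) := mul_mem (h.le_left hu) (h.le_right hw)
  haveI : Fintype (Subgroup.centralizer ({x} : Set G)) := Fintype.ofFinite _
  haveI := Fintype.ofFinite (IrrCharacter (Subgroup.centralizer ({x} : Set G)))
  have hxk : ∃ k : ℕ, orderOf x = 2 ^ k :=
    ⟨1, by rw [pow_one, h.orderOf_eq_two hxP (h.mul_ne_one hu hw hu1)]⟩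
  have hD : blockDefect 2 (principalBlock M (Subgroup.centralizer ({x} : Set G))) =
      blockDefect 2 (principalBlock M G) := by
    rw [CfsgLib.SmallBlocks.blockDefect_principal, CfsgLib.SmallBlocks.blockDefect_principal,
      h.factorization_centralizer hxP]
  refine CfsgLib.BrauerPairs.subNorm_ne_zero (C := Subgroup.centralizer ({x} : Set G))
    (yC := cenElem x) hM rfl hxk rfl
    (isInducedBlock_principal_centralizer hM hxk) hD hχ ?_
  rw [CfsgLib.BrauerPairs.subNorm, sum_eq_zero fun s _ => ?_, mul_zero]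
  split_ifs with hs
  · rfl
  · rw [← CfsgLib.BlockStar.blockPart_shift_eq_subFun x, blockPart_eq_sum]
    have h1 := apply_mul_eq_sectionPart hM hxk hχ hs
    rw [sectionPart, h.apply_mixed_mul hM hu hw hu1 hw1 s.2 (by rwa [Subgroup.orderOf_coe]) hχ, h0]
      at h1
    rw [← h1]
    simp

/-- The number of characters is the rank plus seven. -/
theorem PairData.card_eq_rank_add {u w : G} (hu : u ∈ A) (hw : w ∈ B) (hu1 : u ≠ 1) (hw1 : w ≠ 1)
    (hru : blockRank 2 (principalBlock M (Subgroup.centralizer ({u} : Set G))) = 3)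
    (hrw : blockRank 2 (principalBlock M (Subgroup.centralizer ({w} : Set G))) = 3) :
    Nat.card (principalBlock M G) = blockRank 2 (principalBlock M G) + 7 := by
  classical
  haveI := CfsgLib.Blocks.isPrime_of_isPModular hM
  haveI : M.IsMaximal := hM.2.1
  haveI := CfsgLib.Blocks.charP_res hM
  haveI := CfsgLib.Blocks.isAlgClosed_res (M := M)
  set x := u * w with hx
  have hxP : x ∈ (P : Subgroup G) := mul_mem (h.le_left hu) (h.le_right hw)
  have hx1 : x ≠ 1 := h.mul_ne_one hu hw hu1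
  obtain ⟨n1, n2, n3⟩ := h.not_isConj hu hw hu1 hw1
  have hne : u ≠ w ∧ u ≠ x ∧ w ≠ x := ⟨fun e => n1 (by rw [← e]),
    fun e => n2 (by rw [← hx, ← e]), fun e => n3 (by rw [← hx, ← e])⟩
  have h2 : ∀ v ∈ (P : Subgroup G), ∃ k : ℕ, orderOf v = 2 ^ k := fun v hv => by
    rcases eq_or_ne v 1 with rfl | hv1
    · exact ⟨0, by simp⟩
    · exact ⟨1, by rw [h.orderOf_eq_two hv hv1, pow_one]⟩
  have hu' := h.le_left hu
  have hw' := h.le_right hw
  have hrx : blockRank 2 (principalBlock M (Subgroup.centralizer ({x} : Set G))) = 1 := by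
    haveI : Fintype (Subgroup.centralizer ({x} : Set G)) := Fintype.ofFinite _
    exact (Cfsg.Agent.S4646.result 2 M hM).1
      ((Cfsg.Agent.S4691.result 2 M hM).1 (h.centralizer_mixed hu hw hu1 hw1))
  have hsum := CfsgLib.BlockSections.card_block_eq_sum_rank hM
    (CfsgLib.BrauerPairs.isPBlock_principalBlock (G := G) M) ({1, u, w, x} : Finset G) ?_ ?_
  · rw [hsum, sum_insert (by simp [hu1.symm, hw1.symm, hx1.symm]),
      sum_insert (by simp [hne.1, hne.2.1]), sum_insert (by simp [hne.2.2]), sum_singleton]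
    have hone : ∀ v : G, v ∈ (P : Subgroup G) →
        {b' : Set (IrrCharacter ↥(Subgroup.centralizer ({v} : Set G))) |
          IsInducedBlock M (Subgroup.centralizer ({v} : Set G)) b' (principalBlock M G)} =
        {principalBlock M (Subgroup.centralizer ({v} : Set G))} := fun v hv => by
      haveI : Fintype (Subgroup.centralizer ({v} : Set G)) := Fintype.ofFinite _
      exact Set.ext fun b' => ⟨fun hb' => Set.mem_singleton_iff.2
        ((isInducedBlock_principalBlock_iff hM _ ⟨_, hb'⟩).1 hb'),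
        fun e => Set.mem_singleton_iff.1 e ▸ isInducedBlock_principal_centralizer hM (h2 v hv)⟩
    rw [hone u hu', hone w hw', hone x hxP, finsum_mem_singleton, finsum_mem_singleton,
      finsum_mem_singleton, hru, hrw, hrx]
    obtain ⟨b, hb, -, hrank, huniq⟩ := CfsgLib.BlockSections.exists_block_one (p := 2) hM
      (CfsgLib.BrauerPairs.isPBlock_principalBlock (G := G) M)
    rw [show {b' : Set (IrrCharacter ↥(Subgroup.centralizer ({(1 : G)} : Set G))) |
        IsInducedBlock M (Subgroup.centralizer ({(1 : G)} : Set G)) b' (principalBlock M G)} = {b}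
      from Set.ext fun b' => ⟨huniq b', fun e => Set.mem_singleton_iff.1 e ▸ hb⟩,
      finsum_mem_singleton, hrank]
    omega
  · intro v hv
    simp only [Finset.mem_insert, Finset.mem_singleton] at hv
    rcases hv with rfl | rfl | rfl | rfl
    · exact ⟨0, by simp⟩
    · exact h2 _ hu'
    · exact h2 _ hw'
    · exact h2 _ hxP
  · intro g hg
    rcases eq_or_ne g 1 with rfl | hg1
    · refine ⟨1, ⟨by simp, IsConj.refl _⟩, fun y hy => ?_⟩
      exact isConj_one_right.1 hy.2
    obtain ⟨k, hk⟩ := hg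
    obtain ⟨R, hR⟩ := (IsPGroup.of_card (p := 2) (n := k) (by rw [Nat.card_zpowers, hk]) :
      IsPGroup 2 (Subgroup.zpowers g)).exists_le_sylow
    obtain ⟨c, hc⟩ := MulAction.exists_smul_eq G R P
    have hcg : c * g * c⁻¹ ∈ (P : Subgroup G) := by
      rw [← hc, Sylow.coe_subgroup_smul, Subgroup.mem_pointwise_smul_iff_inv_smul_mem]
      simpa [MulAut.smul_def, mul_assoc] using hR (Subgroup.mem_zpowers g)
    have hcc : IsConj g (c * g * c⁻¹) := isConj_iff.2 ⟨c, rfl⟩
    have huniq : ∀ r ∈ ({u, w, x} : Finset G), IsConj g r → ∃! y, y ∈ ({1, u, w, x} : Finset G) ∧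
        IsConj g y := by
      intro r hr hgr
      refine ⟨r, ⟨Finset.mem_insert_of_mem hr, hgr⟩, fun y hy => ?_⟩
      have hyr : IsConj r y := hgr.symm.trans hy.2
      have hy1 : y ≠ 1 := fun e => hg1 (isConj_one_left.1 (e ▸ hy.2))
      simp only [Finset.mem_insert, Finset.mem_singleton] at hr hy
      rcases hy.1 with rfl | rfl | rfl | rfl
      · exact absurd rfl hy1
      all_goals
        rcases hr with rfl | rfl | rfl <;>
          first
          | rfl
          | exact absurd hyr n1 | exact absurd hyr.symm n1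
          | exact absurd hyr n2 | exact absurd hyr.symm n2
          | exact absurd hyr n3 | exact absurd hyr.symm n3
    rcases h.exists_rep hu hw hu1 hw1 hcg (fun e => hg1 (conj_eq_one_iff.1 e)) with e | e | e
    · exact huniq u (by simp) (hcc.trans e)
    · exact huniq w (by simp) (hcc.trans e)
    · exact huniq x (by simp) (hcc.trans e)

omit hM in
/-- There is no normal 2-complement. -/
theorem PairData.not_complement : ¬ HasNormalPComplement 2 G := by
  classical
  rintro ⟨Q, N, hN, hNQ⟩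
  obtain ⟨u, hu, w, hw, hu1, hw1⟩ := h.exists_gens
  obtain ⟨u', hu', hu1', hne⟩ := h.symm.exists_other (c := u)
  obtain ⟨n, -, e, -⟩ := h.trans u hu hu1 u' hu' hu1' w hw hw1 w hw hw1
  have hcop : (Nat.card N).Coprime (Nat.card (P : Subgroup G)) := by
    rw [h.card_P, show (16 : ℕ) = 2 ^ 4 from rfl]
    refine (Nat.Coprime.pow_left 4 ?_).symm
    refine Nat.prime_two.coprime_iff_not_dvd.2 ?_
    rw [← hNQ.index_eq_card]
    exact Q.not_dvd_index
  have hcompl : N.IsComplement' (P : Subgroup G) :=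
    Subgroup.isComplement'_of_coprime (by
      rw [Sylow.card_eq_multiplicity P, ← Sylow.card_eq_multiplicity Q]
      exact hNQ.card_mul_card) hcop
  have hn : n ∈ N ⊔ (P : Subgroup G) := hcompl.sup_eq_top ▸ Subgroup.mem_top n
  obtain ⟨m, hm, v, hv, rfl⟩ := Subgroup.mem_sup_of_normal_left.1 hn
  have e' : u' * u⁻¹ = m * (u * m⁻¹ * u⁻¹) := by
    rw [← e]
    calc m * v * u * (m * v)⁻¹ * u⁻¹ = m * (v * u * v⁻¹) * m⁻¹ * u⁻¹ := by group
      _ = m * u * m⁻¹ * u⁻¹ := by
        rw [h.comm v hv u (h.le_left hu), mul_inv_cancel_right]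
      _ = _ := by group
  have h1 : u' * u⁻¹ ∈ (P : Subgroup G) ⊓ N := by
    refine Subgroup.mem_inf.2 ⟨mul_mem (h.le_left hu') (inv_mem (h.le_left hu)), ?_⟩
    rw [e']
    exact mul_mem hm (hN.conj_mem _ (inv_mem hm) u)
  rw [inf_comm, hcompl.disjoint.eq_bot, Subgroup.mem_bot, mul_inv_eq_one] at h1
  exact hne h1

/-- The count and the rank. -/
theorem PairData.main : Nat.card (principalBlock M G) = 16 ∧
    blockRank 2 (principalBlock M G) = 9 := by
  classical
  haveI := CfsgLib.Blocks.isPrime_of_isPModular hM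
  haveI := Fintype.ofFinite (IrrCharacter G)
  obtain ⟨u, hu, w, hw, hu1, hw1⟩ := h.exists_gens
  set x := u * w with hx
  have hxP : x ∈ (P : Subgroup G) := mul_mem (h.le_left hu) (h.le_right hw)
  have hx1 : x ≠ 1 := h.mul_ne_one hu hw hu1
  have hx2 := h.orderOf_eq_two hxP hx1
  choose b hb using fun χ : IrrCharacter G => exists_int_apply_involution χ hx2
  haveI : Fintype (Subgroup.centralizer ({u} : Set G)) := Fintype.ofFinite _
  haveI : Fintype (Subgroup.centralizer ({w} : Set G)) := Fintype.ofFinite _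
  obtain ⟨Pu, Ku, Qu, habu, hnu, hiu, hku, honeu, hsecu⟩ := h.centralizer_left hu hw hu1 hw1 hM
  obtain ⟨Pw, Kw, Qw, habw, hnw, hiw, hkw, honew, hsecw⟩ := h.symm.centralizer_left hw hu hw1 hu1 hM
  haveI : Fintype Ku := Fintype.ofFinite _
  haveI : Fintype Kw := Fintype.ofFinite _
  have hwu : w * u = x := h.comm w (h.le_right hw) u (h.le_left hu)
  obtain ⟨Su, φu, gu, y, hφu, hyb, hyv, hyp, hyg, hru⟩ := column_data M hM
    (h.orderOf_eq_two (h.le_left hu) hu1) Pu habu Ku hiu Qu hku honeu hsecu b hb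
  obtain ⟨Sw, φw, gw, z, hφw, hzb, hzv, hzp, hzg, hrw⟩ := column_data M hM
    (h.orderOf_eq_two (h.le_right hw) hw1) Pw habw Kw hiw Qw hkw honew
    (fun χ hχ k hk => (hsecw χ hχ k hk).trans (by rw [hwu])) b hb
  obtain ⟨n1, n2, n3⟩ := h.not_isConj hu hw hu1 hw1
  have hBB : IsPBlock M (principalBlock M G) := principalBlock_isPBlock M G
  have hsub : ∀ F : IrrCharacter G → ℂ, ∑ χ : {χ : IrrCharacter G // χ ∈ principalBlock M G}, F χ =
      ∑ χ ∈ blockFinset (principalBlock M G), F χ := fun F =>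
    (sum_subtype (blockFinset (principalBlock M G)) (fun χ => mem_blockFinset) F).symm
  have horth : ∀ g g' a a' : G, IsPPart 2 g a → IsPPart 2 g' a' → ¬ IsConj a a' →
      ∑ χ : {χ : IrrCharacter G // χ ∈ principalBlock M G},
        ((χ : IrrCharacter G) : G → ℂ) g * conj (((χ : IrrCharacter G) : G → ℂ) g') = 0 := by
    intro g g' a a' hg hg' hne
    have h0 := (Cfsg.Agent.S0925.result 2 M hM).2 g g' a a' hg hg' hne _ hBB
    rw [finsum_mem_eq_sum_blockFinset] at h0
    rw [hsub fun χ => (χ : G → ℂ) g * conj ((χ : G → ℂ) g'), ← h0]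
    exact sum_congr rfl fun χ _ => by rw [IsIrrCharacter.inv χ.2]
  have hxpart : IsPPart 2 x x := ⟨1, mul_one x, Commute.one_right x, ⟨1, by rw [hx2, pow_one]⟩,
    by rw [orderOf_one]; decide⟩
  have honepart : IsPPart 2 (1 : G) 1 := ⟨1, mul_one 1, Commute.one_right 1, ⟨0, by simp⟩,
    by rw [orderOf_one]; decide⟩
  have hb2 : ∑ χ : {χ : IrrCharacter G // χ ∈ principalBlock M G}, b χ ^ 2 = 16 := by
    obtain ⟨Q, N, hN, hNQ⟩ := h.centralizer_mixed hu hw hu1 hw1
    haveI : Fintype (Subgroup.centralizer ({x} : Set G)) := Fintype.ofFinite _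
    have hidx : ∃ k : ℕ, (pPrimeCore 2 (Subgroup.centralizer ({x} : Set G))).index = 2 ^ k := by
      have hcop : (Nat.card N).Coprime 2 := by
        refine (Nat.prime_two.coprime_iff_not_dvd.2 ?_).symm
        rw [← hNQ.index_eq_card]
        exact Q.not_dvd_index
      have hle : N ≤ pPrimeCore 2 (Subgroup.centralizer ({x} : Set G)) := le_sSup ⟨hN, hcop⟩
      obtain ⟨k, hk⟩ := IsPGroup.iff_card.1 Q.2
      have hd := Subgroup.index_dvd_of_le hle
      rw [hNQ.symm.index_eq_card, hk] at hd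
      obtain ⟨j, -, hj⟩ := (Nat.dvd_prime_pow Nat.prime_two).1 hd
      exact ⟨j, hj⟩
    have h0 := (Cfsg.Agent.S0947.result 2 M hM x ⟨1, by rw [hx2, pow_one]⟩ hx1 1
      (by rw [orderOf_one]; decide)).2 hidx
    rw [h.factorization_centralizer hxP, h.factorization_eq_four,
      finsum_mem_eq_sum_blockFinset] at h0
    have h1 : ((∑ χ : {χ : IrrCharacter G // χ ∈ principalBlock M G}, b χ ^ 2 : ℤ) : ℂ) =
        ((16 : ℤ) : ℂ) := by
      rw [Int.cast_sum, hsub fun χ => ((b χ ^ 2 : ℤ) : ℂ)]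
      have h2 : ∀ χ : IrrCharacter G, ((b χ ^ 2 : ℤ) : ℂ) =
          ((‖(χ : G → ℂ) (x * ((1 : Subgroup.centralizer ({x} : Set G)) : G))‖ ^ 2 : ℝ) : ℂ) := by
        intro χ
        rw [OneMemClass.coe_one, mul_one, hb χ, Complex.norm_intCast, sq_abs]
        push_cast
        rfl
      rw [sum_congr rfl fun χ _ => h2 χ, ← Complex.ofReal_sum, h0]
      norm_num
    exact_mod_cast h1
  -- the conditions of the lemma
  have hcx : ∀ χ : IrrCharacter G, conj ((χ : G → ℂ) x) = (χ : G → ℂ) x := fun χ => by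
    rw [hb χ, map_intCast]
  have hbcol : ∀ (S : Type u) (φ : Fin 4 → S → ℂ) (g : S → G) (t : IrrCharacter G → Fin 4 → ℤ)
      (a : G), (∀ χ ∈ principalBlock M G, ∀ s, (χ : G → ℂ) (g s) = ∑ i, (t χ i : ℂ) * φ i s) →
      (∀ s, IsPPart 2 (g s) a) → ¬ IsConj a x → ∀ s,
        ∑ χ : {χ : IrrCharacter G // χ ∈ principalBlock M G},
          (b χ : ℂ) * ∑ i, (t χ i : ℂ) * φ i s = 0 := by
    intro S φ g t a hv hp hne s
    rw [← horth (g s) x a x (hp s) hxpart hne]
    exact sum_congr rfl fun χ _ => by rw [hcx, ← hv χ χ.2 s, hb]; ring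
  have hdcol : ∀ (S : Type u) (φ : Fin 4 → S → ℂ) (g : S → G) (t : IrrCharacter G → Fin 4 → ℤ)
      (a : G), (∀ χ ∈ principalBlock M G, ∀ s, (χ : G → ℂ) (g s) = ∑ i, (t χ i : ℂ) * φ i s) →
      (∀ s, IsPPart 2 (g s) a) → a ≠ 1 → ∀ s,
        ∑ χ : {χ : IrrCharacter G // χ ∈ principalBlock M G},
          ((charDegree ((χ : IrrCharacter G) : G → ℂ) : ℤ) : ℂ) * ∑ i, (t χ i : ℂ) * φ i s = 0 := by
    intro S φ g t a hv hp hne s
    rw [← horth (g s) 1 a 1 (hp s) honepart (fun e => hne (isConj_one_left.1 e))]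
    refine sum_congr rfl fun χ _ => ?_
    rw [← hv χ χ.2 s, (charDegree_spec (χ : IrrCharacter G)).1, map_natCast]
    push_cast
    ring
  have hdb : ∑ χ : {χ : IrrCharacter G // χ ∈ principalBlock M G},
      (charDegree ((χ : IrrCharacter G) : G → ℂ) : ℤ) * b χ = 0 := by
    have h0 := horth x 1 x 1 hxpart honepart (fun e => hx1 (isConj_one_left.1 e))
    have h1 : ((∑ χ : {χ : IrrCharacter G // χ ∈ principalBlock M G},
        (charDegree ((χ : IrrCharacter G) : G → ℂ) : ℤ) * b χ : ℤ) : ℂ) = ((0 : ℤ) : ℂ) := by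
      rw [Int.cast_sum, Int.cast_zero, ← h0]
      refine sum_congr rfl fun χ _ => ?_
      rw [(charDegree_spec (χ : IrrCharacter G)).1, map_natCast, hb]
      push_cast
      ring
    exact_mod_cast h1
  have hbu := hbcol Su φu gu y u hyv hyp n2
  have hbw := hbcol Sw φw gw z w hzv hzp n3
  have hyy := gram_eq (y := fun χ : {χ : IrrCharacter G // χ ∈ principalBlock M G} => y χ)
    hφu (fun χ => hyb χ χ.2) hb2 hbu (fun s s' => by
      rw [← hyg s s', ← hsub fun χ => (χ : G → ℂ) (gu s) * conj ((χ : G → ℂ) (gu s'))]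
      exact sum_congr rfl fun χ _ => by rw [hyv χ χ.2 s, hyv χ χ.2 s'])
  have hzz := gram_eq (y := fun χ : {χ : IrrCharacter G // χ ∈ principalBlock M G} => z χ)
    hφw (fun χ => hzb χ χ.2) hb2 hbw (fun s s' => by
      rw [← hzg s s', ← hsub fun χ => (χ : G → ℂ) (gw s) * conj ((χ : G → ℂ) (gw s'))]
      exact sum_congr rfl fun χ _ => by rw [hzv χ χ.2 s, hzv χ χ.2 s'])
  have hyz := cross_eq_one (y := fun χ : {χ : IrrCharacter G // χ ∈ principalBlock M G} => y χ)
    (y' := fun χ : {χ : IrrCharacter G // χ ∈ principalBlock M G} => z χ)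
    hφu (fun χ => hyb χ χ.2) hb2 hbu hφw (fun χ => hzb χ χ.2) hbw (fun s s' => by
      rw [← horth (gu s) (gw s') u w (hyp s) (hzp s') n1]
      exact sum_congr rfl fun χ _ => by rw [hyv χ χ.2 s, hzv χ χ.2 s'])
  have hfin := card_eq_sixteen_or_le
    (y := fun χ : {χ : IrrCharacter G // χ ∈ principalBlock M G} => y χ)
    (z := fun χ : {χ : IrrCharacter G // χ ∈ principalBlock M G} => z χ)
    (b := fun χ : {χ : IrrCharacter G // χ ∈ principalBlock M G} => b χ) (fun χ : {χ : IrrCharacter G // χ ∈ principalBlock M G} => hyb χ.1 χ.2)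
    (fun χ : {χ : IrrCharacter G // χ ∈ principalBlock M G} => hzb χ.1 χ.2) hyy hzz hyz
    (fun χ e => h.apply_mixed_ne_zero hM hu hw hu1 hw1 χ.2 (by rw [hb, e, Int.cast_zero]))
    (d := fun χ => (charDegree ((χ : IrrCharacter G) : G → ℂ) : ℤ))
    (fun χ => Int.natCast_ne_zero.2 (charDegree_spec (χ : IrrCharacter G)).2.1.ne')
    (degree_orth (y := fun χ : {χ : IrrCharacter G // χ ∈ principalBlock M G} => y χ) hφu
      (fun χ => hyb χ χ.2) _ (hdcol Su φu gu y u hyv hyp hu1) hdb)
    (degree_orth (y := fun χ : {χ : IrrCharacter G // χ ∈ principalBlock M G} => z χ) hφw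
      (fun χ => hzb χ χ.2) _ (hdcol Sw φw gw z w hzv hzp hw1) hdb)
  have hk := h.card_eq_rank_add hM hu hw hu1 hw1 hru hrw
  have hcard : Fintype.card {χ : IrrCharacter G // χ ∈ principalBlock M G} =
      Nat.card (principalBlock M G) := (Nat.card_eq_fintype_card).symm
  rw [hcard] at hfin
  rcases hfin with e | e
  · exact ⟨e, by omega⟩
  · exfalso
    have hl : blockRank 2 (principalBlock M G) = 1 := by
      have := CfsgLib.SmallBlocks.blockRank_pos_B0 (G := G) hM
      omega
    exact h.not_complement ((Cfsg.Agent.S4691.result 2 M hM).2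
      ((Cfsg.Agent.S4646.result 2 M hM).2 hl))

end CfsgLib.SixteenNine
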