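import Mathlib.GroupTheory.PGroup
import Mathlib.GroupTheory.GroupAction.Quotient
import Mathlib.Tactic

/-!
# A group of nine automorphisms of an abelian group of order sixteen

The group is a product of two fixed subgroups of order four, each cycled by the stabilizer of the
other.
-/

set_option autoImplicit false
set_option linter.style.haveILetI false

namespace CfsgLib.SixteenNine

universe u

variable {P : Type u} [Group P] [Finite P]

/-- The fixed subgroup of an automorphism. -/
def fixedGroup (e : MulAut P) : Subgroup P := MonoidHom.eqLocus e.toMonoidHom (MonoidHom.id P)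

omit [Finite P] in
theorem mem_fixedGroup {e : MulAut P} {x : P} : x ∈ fixedGroup e ↔ e x = x := Iff.rfl

set_option maxHeartbeats 1000000 in
/-- Two fixed points data: a decomposition into two subgroups of order four. -/
theorem exists_pair (E : Subgroup (MulAut P)) (hP : Nat.card P = 16)
    (hE : Nat.card E = 9) :
    ∃ F₁ F₂ : Subgroup P, Nat.card F₁ = 4 ∧ Nat.card F₂ = 4 ∧ F₁ ⊓ F₂ = ⊥ ∧
      (∀ p : P, ∃ a ∈ F₁, ∃ c ∈ F₂, a * c = p) ∧
      (∀ e ∈ E, ∀ a ∈ F₁, e a ∈ F₁) ∧ (∀ e ∈ E, ∀ a ∈ F₂, e a ∈ F₂) ∧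
      (∀ a ∈ F₁, a ≠ 1 → ∀ a' ∈ F₁, a' ≠ 1 → ∀ c ∈ F₂, c ≠ 1 → ∀ c' ∈ F₂, c' ≠ 1 →
        ∃ e ∈ E, e a = a' ∧ e c = c') ∧
      (∀ e ∈ E, ∀ a ∈ F₁, a ≠ 1 → e a = a → ∀ a' ∈ F₁, e a' = a') ∧
      (∀ e ∈ E, ∀ a ∈ F₂, a ≠ 1 → e a = a → ∀ a' ∈ F₂, e a' = a') := by
  classical
  haveI : Fact (Nat.Prime 3) := ⟨by norm_num⟩
  have hEc : ∀ e f : E, e * f = f * e :=
    fun e f => (IsPGroup.isMulCommutative_of_card_eq_prime_sq (p := 3) (G := E) (by rw [hE]; rfl)).is_comm.comm e f
  have hE3 : IsPGroup 3 E := IsPGroup.of_card (n := 2) (by rw [hE]; rfl)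
  haveI : Fintype P := Fintype.ofFinite P
  haveI : Finite E := Nat.finite_of_card_ne_zero (by omega)
  haveI : Fintype E := Fintype.ofFinite E
  set F : E → Subgroup P := fun e => fixedGroup (e : MulAut P) with hF
  have hmem : ∀ (e : E) (x : P), x ∈ F e ↔ e • x = x := fun e x => Iff.rfl
  -- the possible fixed subgroups
  have hone : ∀ e : E, Nat.card (F e) = 16 → e = 1 := by
    intro e he
    have htop : F e = ⊤ := Subgroup.eq_top_of_card_eq _ (he.trans hP.symm)
    refine Subtype.ext (MulEquiv.ext fun x => ?_)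
    exact (mem_fixedGroup (e := (e : MulAut P))).1 (htop ▸ Subgroup.mem_top x : x ∈ F e)
  have hsize : ∀ e : E, e ≠ 1 → Nat.card (F e) = 1 ∨ Nat.card (F e) = 4 := by
    intro e he
    have hdvd : Nat.card (F e) ∣ 2 ^ 4 := by
      rw [show (2 : ℕ) ^ 4 = Nat.card P by rw [hP]; rfl]
      exact Subgroup.card_subgroup_dvd_card _
    have hmod : Nat.card (F e) ≡ 16 [MOD 3] := by
      have h := (hE3.to_subgroup (Subgroup.zpowers e)).card_modEq_card_fixedPoints P
      rw [hP] at h
      have e' : Nat.card (F e) = Nat.card (MulAction.fixedPoints (Subgroup.zpowers e) P) := by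
        refine Nat.card_congr (Equiv.subtypeEquivRight fun x => ?_)
        constructor
        · intro hx g
          exact (Subgroup.zpowers_le (H := MulAction.stabilizer E x)).2
            (MulAction.mem_stabilizer_iff.2 ((hmem e x).1 hx)) g.2
        · intro hx
          exact (hmem e x).2 (hx ⟨e, Subgroup.mem_zpowers e⟩)
      rw [e']
      exact h.symm
    obtain ⟨i, hi, hie⟩ := (Nat.dvd_prime_pow Nat.prime_two).1 hdvd
    have h16 : Nat.card (F e) ≠ 16 := fun h => he (hone e h)
    interval_cases i <;> simp_all [Nat.ModEq]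
  -- Burnside's count
  set J : Finset E := Finset.univ.filter fun e => Nat.card (F e) = 4 with hJ
  have hJ1 : (1 : E) ∉ J := by
    intro h
    have h1 : F 1 = ⊤ := by
      ext x
      simp [hmem]
    have h2 := (Finset.mem_filter.1 h).2
    rw [h1, Subgroup.card_top, hP] at h2
    omega
  have hcount : (24 + 3 * J.card) % 9 = 0 := by
    have hB := MulAction.sum_card_fixedBy_eq_card_orbits_mul_card_group E P
    have hfix : ∀ e : E, Fintype.card (MulAction.fixedBy P e) =
        (if Nat.card (F e) = 4 then 3 else 0) + 1 + (if e = 1 then 15 else 0) := by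
      intro e
      rw [← Nat.card_eq_fintype_card, show Nat.card (MulAction.fixedBy P e) = Nat.card (F e) from
        Nat.card_congr (Equiv.subtypeEquivRight fun x => (hmem e x).symm)]
      rcases eq_or_ne e 1 with rfl | he
      · have h1 : F 1 = ⊤ := by
          ext x
          simp [hmem]
        rw [h1, Subgroup.card_top, hP, if_neg (by omega), if_pos rfl]
      · rw [if_neg he]
        rcases hsize e he with h | h <;> rw [h] <;> simp
    rw [Finset.sum_congr rfl fun e _ => hfix e, Finset.sum_add_distrib, Finset.sum_add_distrib,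
      Finset.sum_ite_eq', if_pos (Finset.mem_univ _), Finset.sum_const, Finset.card_univ,
      ← Nat.card_eq_fintype_card (α := E), hE, ← Finset.sum_filter, ← hJ, Finset.sum_const,
      smul_eq_mul, smul_eq_mul] at hB
    omega
  have hJ8 : J.card ≤ 8 := by
    have h : J ⊆ Finset.univ.erase 1 := fun e he =>
      Finset.mem_erase.2 ⟨fun h => hJ1 (h ▸ he), Finset.mem_univ e⟩
    have h2 := Finset.card_le_card h
    rwa [Finset.card_erase_of_mem (Finset.mem_univ _), Finset.card_univ,
      ← Nat.card_eq_fintype_card, hE] at h2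
  have hord : ∀ e : E, e ≠ 1 → Nat.card (Subgroup.zpowers e) = 3 ∨ Nat.card (Subgroup.zpowers e) = 9 := by
    intro e he
    have hd : Nat.card (Subgroup.zpowers e) ∣ 3 ^ 2 := by
      rw [show (3 : ℕ) ^ 2 = Nat.card E by rw [hE]; rfl]
      exact Subgroup.card_subgroup_dvd_card _
    obtain ⟨i, hi, hie⟩ := (Nat.dvd_prime_pow (by norm_num)).1 hd
    interval_cases i
    · rw [Nat.card_zpowers] at hie
      exact absurd (orderOf_eq_one_iff.1 (by simpa using hie)) he
    · exact Or.inl hie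
    · exact Or.inr hie
  -- no element is fixed by all of `E`
  have hglobal : ∀ x : P, (∀ e : E, e • x = x) → x = 1 := by
    intro x hx
    by_contra hx1
    have h : Finset.univ.erase 1 ⊆ J := fun e he => by
      refine Finset.mem_filter.2 ⟨Finset.mem_univ e, (hsize e (Finset.mem_erase.1 he).1).resolve_left
        fun h => hx1 ?_⟩
      have : x ∈ F e := (hmem e x).2 (hx e)
      rw [Subgroup.card_eq_one.1 h] at this
      exact Subgroup.mem_bot.1 this
    have h2 := Finset.card_le_card h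
    rw [Finset.card_erase_of_mem (Finset.mem_univ _), Finset.card_univ,
      ← Nat.card_eq_fintype_card, hE] at h2
    omega
  -- no element of order nine with fixed points
  have hnine : ∀ e : E, Nat.card (Subgroup.zpowers e) = 9 → e ∉ J := by
    intro e he heJ
    have htop : Subgroup.zpowers e = ⊤ := Subgroup.eq_top_of_card_eq _ (he.trans hE.symm)
    obtain ⟨x, hx, hx1⟩ : ∃ x ∈ F e, x ≠ 1 := by
      by_contra hcon
      push Not at hcon
      have := (Finset.mem_filter.1 heJ).2
      rw [(Subgroup.eq_bot_iff_forall _).2 hcon, Subgroup.card_bot] at this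
      omega
    refine hx1 (hglobal x fun g => ?_)
    exact (Subgroup.zpowers_le (H := MulAction.stabilizer E x)).2
      (MulAction.mem_stabilizer_iff.2 ((hmem e x).1 hx)) (htop ▸ Subgroup.mem_top g)
  have hinv : ∀ e ∈ J, e⁻¹ ∈ J := by
    intro e he
    refine Finset.mem_filter.2 ⟨Finset.mem_univ _, ?_⟩
    rw [← (Finset.mem_filter.1 he).2]
    congr 1
    refine congrArg (fun S : Subgroup P => (S : Type u)) ?_
    ext x
    rw [hmem, hmem, inv_smul_eq_iff, eq_comm]
  have hJ1' : J.card ≠ 1 := by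
    intro h
    obtain ⟨e, he⟩ := Finset.card_eq_one.1 h
    have heJ : e ∈ J := he ▸ Finset.mem_singleton_self e
    have h2 := hinv e heJ
    rw [he, Finset.mem_singleton] at h2
    have he1 : e ≠ 1 := fun h => hJ1 (h ▸ heJ)
    have ho : orderOf e ∣ 2 := orderOf_dvd_of_pow_eq_one (by
      rw [pow_two]
      nth_rewrite 1 [← h2]
      exact inv_mul_cancel e)
    rcases hord e he1 with h | h <;> rw [Nat.card_zpowers] at h <;> rw [h] at ho <;> omega
  obtain ⟨e₁, he₁⟩ : J.Nonempty := Finset.card_pos.1 (by omega)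
  obtain ⟨e₂, he₂, he₂'⟩ : ∃ e₂ ∈ J, e₂ ∉ Subgroup.zpowers e₁ := by
    by_contra hcon
    push Not at hcon
    have h1 : J ⊆ (Finset.univ.filter fun e => e ∈ Subgroup.zpowers e₁).erase 1 := fun e he =>
      Finset.mem_erase.2 ⟨fun h => hJ1 (h ▸ he), Finset.mem_filter.2 ⟨Finset.mem_univ e, hcon e he⟩⟩
    have h2 := Finset.card_le_card h1
    rw [Finset.card_erase_of_mem (by simp), ← Nat.subtype_card _ (fun e => by simp :
      ∀ e, e ∈ (Finset.univ.filter fun e => e ∈ Subgroup.zpowers e₁) ↔ e ∈ Subgroup.zpowers e₁)] at h2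
    have h3 : Nat.card {e // e ∈ Subgroup.zpowers e₁} = Nat.card (Subgroup.zpowers e₁) := rfl
    rcases hord e₁ (fun h => hJ1 (h ▸ he₁)) with h | h
    · omega
    · exact hnine e₁ h he₁
  have hboth : F e₁ ⊓ F e₂ = ⊥ := by
    rw [Subgroup.eq_bot_iff_forall]
    intro x hx
    refine hglobal x fun g => ?_
    have hle : Subgroup.zpowers e₁ ≤ MulAction.stabilizer E x :=
      Subgroup.zpowers_le.2 (MulAction.mem_stabilizer_iff.2 ((hmem e₁ x).1 hx.1))
    have htop : MulAction.stabilizer E x = ⊤ := by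
      have hd : Nat.card (MulAction.stabilizer E x) ∣ 3 ^ 2 := by
        rw [show (3 : ℕ) ^ 2 = Nat.card E by rw [hE]; rfl]
        exact Subgroup.card_subgroup_dvd_card _
      obtain ⟨i, hi, hie⟩ := (Nat.dvd_prime_pow (by norm_num)).1 hd
      refine Subgroup.eq_top_of_card_eq _ ?_
      rw [hie, hE]
      have hne1 : e₁ ≠ 1 := fun h => hJ1 (h ▸ he₁)
      have h3 : 3 ≤ Nat.card (Subgroup.zpowers e₁) := by
        rcases hord e₁ hne1 with h | h <;> omega
      have h4 := Subgroup.card_le_of_le hle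
      interval_cases i
      · omega
      · exfalso
        have heq := Subgroup.eq_of_le_of_card_ge hle (by omega)
        exact he₂' (heq ▸ MulAction.mem_stabilizer_iff.2 ((hmem e₂ x).1 hx.2))
      · rfl
    exact MulAction.mem_stabilizer_iff.1 (htop ▸ Subgroup.mem_top g)
  have hc1 : Nat.card (F e₁) = 4 := (Finset.mem_filter.1 he₁).2
  have hc2 : Nat.card (F e₂) = 4 := (Finset.mem_filter.1 he₂).2
  have hdec : ∀ p : P, ∃ a ∈ F e₁, ∃ c ∈ F e₂, a * c = p := by
    let m : F e₁ × F e₂ → P := fun q => (q.1 : P) * q.2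
    have hm : Function.Injective m := by
      intro q r h
      have h' : (r.1 : P)⁻¹ * q.1 = (r.2 : P) * (q.2 : P)⁻¹ := by
        rw [inv_mul_eq_iff_eq_mul, ← mul_assoc, eq_mul_inv_iff_mul_eq]
        exact h
      have h2 : (r.1 : P)⁻¹ * q.1 ∈ F e₁ ⊓ F e₂ := Subgroup.mem_inf.2
        ⟨mul_mem (inv_mem r.1.2) q.1.2, by rw [h']; exact mul_mem r.2.2 (inv_mem q.2.2)⟩
      rw [hboth, Subgroup.mem_bot, inv_mul_eq_one] at h2
      refine Prod.ext (Subtype.ext h2.symm) (Subtype.ext ?_)
      have h3 : (q.1 : P) * q.2 = r.1 * r.2 := h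
      rw [← h2] at h3
      exact mul_left_cancel h3
    have hb := (Nat.bijective_iff_injective_and_card m).2
      ⟨hm, by rw [Nat.card_prod, hc1, hc2, hP]⟩
    intro p
    obtain ⟨q, hq⟩ := hb.2 p
    exact ⟨q.1, q.1.2, q.2, q.2.2, hq⟩
  have hstable : ∀ (d g : E) (x : P), x ∈ F d → g • x ∈ F d := fun d g x hx => by
    rw [hmem, smul_smul, hEc, ← smul_smul, (hmem d x).1 hx]
  -- each fixed subgroup is cycled by the other automorphism
  have htrans : ∀ d g : E, Nat.card (F d) = 4 → g ≠ 1 → F d ⊓ F g = ⊥ →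
      ∀ a ∈ F d, a ≠ 1 → ∀ a' ∈ F d, a' ≠ 1 → ∃ i : ℕ, g ^ i • a = a' := by
    intro d g hd hg hdg a ha ha1 a' ha' ha1'
    have hne : ∀ x ∈ F d, x ≠ 1 → g • x ≠ x := fun x hx hx1 h => hx1 (by
      have h2 : x ∈ F d ⊓ F g := ⟨hx, (hmem g x).2 h⟩
      rwa [hdg, Subgroup.mem_bot] at h2)
    have hk : ∀ i : ℕ, g ^ i • a ∈ F d ∧ g ^ i • a ≠ 1 := fun i =>
      ⟨hstable d _ a ha, fun h => ha1 (MulAction.injective (g ^ i) (h.trans (smul_one _).symm))⟩
    by_contra hcon
    push Not at hcon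
    have h0 := hcon 0
    rw [pow_zero, one_smul] at h0
    have h1 : g • a ≠ a := hne a ha ha1
    have h2 : g ^ 2 • a ≠ g • a := by
      rw [pow_two, ← smul_smul]
      exact fun h => h1 (MulAction.injective g h)
    have h3 : g ^ 2 • a ≠ a := by
      intro h
      apply h1
      have ho : orderOf g ∣ 3 ^ 2 := by
        rw [show (3 : ℕ) ^ 2 = Nat.card E by rw [hE]; rfl]
        exact orderOf_dvd_natCard g
      have hodd : g ^ 9 = 1 := orderOf_dvd_iff_pow_eq_one.1 ho
      have h8 : ∀ n : ℕ, (g ^ 2) ^ n • a = a := fun n => by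
        induction n with
        | zero => simp
        | succ n ih => rw [pow_succ, ← smul_smul, h, ih]
      calc g • a = g ^ (2 * 5) • a := by rw [show 2 * 5 = 9 + 1 from rfl, pow_add, hodd, one_mul, pow_one]
        _ = a := by rw [pow_mul, h8]
    have hcard : ({1, a, a', g • a, g ^ 2 • a} : Finset P).card ≤ 4 := by
      refine le_of_le_of_eq (Finset.card_le_card fun x hx => ?_)
        ((Nat.card_eq_card_toFinset (F d : Set P)).symm.trans hd)
      simp only [Finset.mem_insert, Finset.mem_singleton] at hx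
      rw [Set.mem_toFinset]
      rcases hx with rfl | rfl | rfl | rfl | rfl
      · exact one_mem _
      · exact ha
      · exact ha'
      · simpa using (hk 1).1
      · exact (hk 2).1
    have c1 := hcon 1
    have c2 := hcon 2
    rw [pow_one] at c1
    have k1 : g • a ≠ 1 := by simpa using (hk 1).2
    have hc : ({1, a, a', g • a, g ^ 2 • a} : Finset P).card = 5 := by
      rw [Finset.card_insert_of_notMem (by simp [ha1.symm, ha1'.symm, k1.symm, (hk 2).2.symm]),
        Finset.card_insert_of_notMem (by simp [h0, h1.symm, h3.symm]),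
        Finset.card_insert_of_notMem (by simp [Ne.symm c1, Ne.symm c2]),
        Finset.card_insert_of_notMem (by simp [h2.symm]), Finset.card_singleton]
    omega
  have hfix : ∀ d g : E, Nat.card (F d) = 4 → g ≠ 1 → F d ⊓ F g = ⊥ →
      ∀ e : E, ∀ a ∈ F d, a ≠ 1 → e • a = a → ∀ a' ∈ F d, e • a' = a' := by
    intro d g hd hg hdg e a ha ha1 hea a' ha'
    rcases eq_or_ne a' 1 with rfl | ha1'
    · exact smul_one e
    · obtain ⟨i, rfl⟩ := htrans d g hd hg hdg a ha ha1 a' ha' ha1'
      rw [smul_smul, hEc, ← smul_smul, hea]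
  refine ⟨F e₁, F e₂, hc1, hc2, hboth, hdec, fun e he a ha => hstable e₁ ⟨e, he⟩ a ha,
    fun e he a ha => hstable e₂ ⟨e, he⟩ a ha, ?_,
    fun e he a ha ha1 hea a' ha' => hfix e₁ e₂ hc1 (fun h => hJ1 (h ▸ he₂)) hboth ⟨e, he⟩ a ha ha1 hea a' ha',
    fun e he a ha ha1 hea a' ha' => hfix e₂ e₁ hc2 (fun h => hJ1 (h ▸ he₁)) (by rw [inf_comm, hboth])
      ⟨e, he⟩ a ha ha1 hea a' ha'⟩
  intro a ha ha1 a' ha' ha1' c hc hc1' c' hc' hc2'
  obtain ⟨j, hj⟩ := htrans e₁ e₂ hc1 (fun h => hJ1 (h ▸ he₂)) hboth a ha ha1 a' ha' ha1'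
  obtain ⟨i, hi⟩ := htrans e₂ e₁ hc2 (fun h => hJ1 (h ▸ he₁)) (by rw [inf_comm, hboth]) c hc hc1'
    c' hc' hc2'
  refine ⟨((e₂ ^ j * e₁ ^ i : E) : MulAut P), (e₂ ^ j * e₁ ^ i).2, ?_, ?_⟩
  · show (e₂ ^ j * e₁ ^ i) • a = a'
    rw [← smul_smul, show e₁ ^ i • a = a from MulAction.mem_stabilizer_iff.1
      (pow_mem (MulAction.mem_stabilizer_iff.2 ((hmem e₁ a).1 ha)) i), hj]
  · show (e₂ ^ j * e₁ ^ i) • c = c'
    rw [hEc, ← smul_smul, show e₂ ^ j • c = c from MulAction.mem_stabilizer_iff.1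
      (pow_mem (MulAction.mem_stabilizer_iff.2 ((hmem e₂ c).1 hc)) j), hi]

end CfsgLib.SixteenNine
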